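import Mathlib

/-!
# The degree just below the bound does not divide the order of E₈(q)
-/

set_option autoImplicit false

namespace Cfsg.Agent.E8Deg

theorem bezout2 (q : ℤ) :
    ((1) + (8 * q ^ 1)) *
      (q ^ 21 + q ^ 20 + q ^ 19 - q ^ 16 + q ^ 13 + q ^ 11 + q ^ 9 + q ^ 7 + q ^ 5 + q ^ 3 - 1) +
    ((-64) + (-8 * q ^ 1) + (-64 * q ^ 2) + (-7 * q ^ 3) + (-56 * q ^ 4) + (-6 * q ^ 5) + (-48 * q ^ 6) + (-5 * q ^ 7) + (-40 * q ^ 8) + (-4 * q ^ 9) + (-32 * q ^ 10) + (-3 * q ^ 11) + (-24 * q ^ 12) + (-2 * q ^ 13) + (-16 * q ^ 14) + (-2 * q ^ 15) + (-17 * q ^ 16) + (-10 * q ^ 17) + (-17 * q ^ 18) + (-9 * q ^ 19) + (-8 * q ^ 20)) * (q ^ 2 - 1) = 63 := by ring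

theorem bezout8 (q : ℤ) :
    ((-110) + (65 * q ^ 1) + (16 * q ^ 2) + (-61 * q ^ 3) + (79 * q ^ 4) + (-61 * q ^ 5) + (16 * q ^ 6) + (65 * q ^ 7)) *
      (q ^ 21 + q ^ 20 + q ^ 19 - q ^ 16 + q ^ 13 + q ^ 11 + q ^ 9 + q ^ 7 + q ^ 5 + q ^ 3 - 1) +
    ((47) + (-65 * q ^ 1) + (-16 * q ^ 2) + (-49 * q ^ 3) + (-14 * q ^ 4) + (-33 * q ^ 5) + (-12 * q ^ 6) + (-80 * q ^ 7) + (-10 * q ^ 8) + (-64 * q ^ 9) + (-8 * q ^ 10) + (-48 * q ^ 11) + (-6 * q ^ 12) + (-32 * q ^ 13) + (-4 * q ^ 14) + (31 * q ^ 15) + (43 * q ^ 16) + (-34 * q ^ 17) + (-20 * q ^ 18) + (-81 * q ^ 19) + (-65 * q ^ 20)) * (q ^ 8 - 1) = 63 := by ring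

theorem bezout12 (q : ℤ) :
    ((-115) + (25 * q ^ 1) + (74 * q ^ 2) + (-101 * q ^ 3) + (137 * q ^ 4) + (-101 * q ^ 5) + (74 * q ^ 6) + (25 * q ^ 7) + (-115 * q ^ 8) + (88 * q ^ 9) + (-52 * q ^ 10) + (88 * q ^ 11)) *
      (q ^ 21 + q ^ 20 + q ^ 19 - q ^ 16 + q ^ 13 + q ^ 11 + q ^ 9 + q ^ 7 + q ^ 5 + q ^ 3 - 1) +
    ((-74) + (-25 * q ^ 1) + (-74 * q ^ 2) + (-14 * q ^ 3) + (-112 * q ^ 4) + (60 * q ^ 5) + (-150 * q ^ 6) + (71 * q ^ 7) + (-62 * q ^ 8) + (82 * q ^ 9) + (-100 * q ^ 10) + (-33 * q ^ 11) + (-138 * q ^ 12) + (-22 * q ^ 13) + (-50 * q ^ 14) + (104 * q ^ 15) + (2 * q ^ 16) + (79 * q ^ 17) + (-124 * q ^ 18) + (-36 * q ^ 19) + (-88 * q ^ 20)) * (q ^ 12 - 1) = 189 := by ring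

theorem bezout14 (q : ℤ) :
    ((-314) + (134 * q ^ 1) + (190 * q ^ 2) + (-244 * q ^ 3) + (253 * q ^ 4) + (-181 * q ^ 5) + (-125 * q ^ 6) + (323 * q ^ 7) + (-62 * q ^ 8) + (-55 * q ^ 9) + (1 * q ^ 10) + (8 * q ^ 11) + (64 * q ^ 12) + (71 * q ^ 13)) *
      (q ^ 21 + q ^ 20 + q ^ 19 - q ^ 16 + q ^ 13 + q ^ 11 + q ^ 9 + q ^ 7 + q ^ 5 + q ^ 3 - 1) +
    ((-127) + (-134 * q ^ 1) + (-190 * q ^ 2) + (-70 * q ^ 3) + (-119 * q ^ 4) + (57 * q ^ 5) + (15 * q ^ 6) + (-194 * q ^ 7) + (-229 * q ^ 8) + (59 * q ^ 9) + (31 * q ^ 10) + (-66 * q ^ 11) + (-87 * q ^ 12) + (-128 * q ^ 13) + (-142 * q ^ 14) + (187 * q ^ 15) + (46 * q ^ 16) + (-73 * q ^ 17) + (-143 * q ^ 18) + (-135 * q ^ 19) + (-71 * q ^ 20)) * (q ^ 14 - 1) = 441 := by ring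

theorem bezout18 (q : ℤ) :
    ((-3803) + (194 * q ^ 1) + (2623 * q ^ 2) + (-4783 * q ^ 3) + (4072 * q ^ 4) + (-2326 * q ^ 5) + (-401 * q ^ 6) + (2840 * q ^ 7) + (-2102 * q ^ 8) + (320 * q ^ 9) + (859 * q ^ 10) + (-436 * q ^ 11) + (1867 * q ^ 12) + (-184 * q ^ 13) + (-2858 * q ^ 14) + (3722 * q ^ 15) + (-86 * q ^ 16) + (2021 * q ^ 17)) *
      (q ^ 21 + q ^ 20 + q ^ 19 - q ^ 16 + q ^ 13 + q ^ 11 + q ^ 9 + q ^ 7 + q ^ 5 + q ^ 3 - 1) +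
    ((-6970) + (-194 * q ^ 1) + (-2623 * q ^ 2) + (980 * q ^ 3) + (-3878 * q ^ 4) + (1146 * q ^ 5) + (-4188 * q ^ 6) + (52 * q ^ 7) + (-4813 * q ^ 8) + (2171 * q ^ 9) + (-4934 * q ^ 10) + (825 * q ^ 11) + (-5622 * q ^ 12) + (1432 * q ^ 13) + (-1333 * q ^ 14) + (3196 * q ^ 15) + (-680 * q ^ 16) + (-778 * q ^ 17) + (-5657 * q ^ 18) + (-1935 * q ^ 19) + (-2021 * q ^ 20)) * (q ^ 18 - 1) = 10773 := by ring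

theorem bezout20 (q : ℤ) :
    ((-44) + (26 * q ^ 1) + (19 * q ^ 2) + (-37 * q ^ 3) + (19 * q ^ 4) + (-37 * q ^ 5) + (19 * q ^ 6) + (26 * q ^ 7) + (-44 * q ^ 8) + (26 * q ^ 9) + (19 * q ^ 10) + (-37 * q ^ 11) + (19 * q ^ 12) + (26 * q ^ 13) + (-44 * q ^ 14) + (26 * q ^ 15) + (19 * q ^ 16) + (-37 * q ^ 17) + (19 * q ^ 18) + (26 * q ^ 19)) *
      (q ^ 21 + q ^ 20 + q ^ 19 - q ^ 16 + q ^ 13 + q ^ 11 + q ^ 9 + q ^ 7 + q ^ 5 + q ^ 3 - 1) +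
    ((-19) + (-26 * q ^ 1) + (-19 * q ^ 2) + (-7 * q ^ 3) + (7 * q ^ 4) + (12 * q ^ 5) + (-30 * q ^ 6) + (-32 * q ^ 7) + (-4 * q ^ 8) + (-13 * q ^ 9) + (-41 * q ^ 10) + (6 * q ^ 11) + (-15 * q ^ 12) + (-38 * q ^ 13) + (11 * q ^ 14) + (25 * q ^ 15) + (-8 * q ^ 16) + (-1 * q ^ 17) + (-8 * q ^ 18) + (-45 * q ^ 19) + (-26 * q ^ 20)) * (q ^ 20 - 1) = 63 := by ring

theorem bezout24 (q : ℤ) :
    ((-152) + (107 * q ^ 1) + (37 * q ^ 2) + (-145 * q ^ 3) + (163 * q ^ 4) + (-145 * q ^ 5) + (37 * q ^ 6) + (107 * q ^ 7) + (-152 * q ^ 8) + (44 * q ^ 9) + (-26 * q ^ 10) + (44 * q ^ 11) + (37 * q ^ 12) + (-82 * q ^ 13) + (37 * q ^ 14) + (44 * q ^ 15) + (-26 * q ^ 16) + (44 * q ^ 17) + (37 * q ^ 18) + (-82 * q ^ 19) + (37 * q ^ 20) + (44 * q ^ 21) + (-26 * q ^ 22) + (44 * q ^ 23)) *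
      (q ^ 21 + q ^ 20 + q ^ 19 - q ^ 16 + q ^ 13 + q ^ 11 + q ^ 9 + q ^ 7 + q ^ 5 + q ^ 3 - 1) +
    ((-37) + (-107 * q ^ 1) + (-37 * q ^ 2) + (-7 * q ^ 3) + (-56 * q ^ 4) + (30 * q ^ 5) + (-75 * q ^ 6) + (-59 * q ^ 7) + (-31 * q ^ 8) + (41 * q ^ 9) + (-50 * q ^ 10) + (-111 * q ^ 11) + (-69 * q ^ 12) + (-11 * q ^ 13) + (-25 * q ^ 14) + (52 * q ^ 15) + (1 * q ^ 16) + (-55 * q ^ 17) + (-62 * q ^ 18) + (-18 * q ^ 19) + (-44 * q ^ 20)) * (q ^ 24 - 1) = 189 := by ring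

theorem bezout30 (q : ℤ) :
    ((-2879656) + (673558 * q ^ 1) + (1524422 * q ^ 2) + (-2025299 * q ^ 3) + (894926 * q ^ 4) + (-1760888 * q ^ 5) + (1493426 * q ^ 6) + (391948 * q ^ 7) + (-2507326 * q ^ 8) + (2274640 * q ^ 9) + (168599 * q ^ 10) + (-1025867 * q ^ 11) + (1383617 * q ^ 12) + (-155207 * q ^ 13) + (-1812562 * q ^ 14) + (790423 * q ^ 15) + (889445 * q ^ 16) + (-634448 * q ^ 17) + (133571 * q ^ 18) + (679039 * q ^ 19) + (397982 * q ^ 20) + (-665444 * q ^ 21) + (607835 * q ^ 22) + (1162753 * q ^ 23) + (-1395439 * q ^ 24) + (-47288 * q ^ 25) + (1133003 * q ^ 26) + (-775253 * q ^ 27) + (60680 * q ^ 28) + (1857517 * q ^ 29)) *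
      (q ^ 21 + q ^ 20 + q ^ 19 - q ^ 16 + q ^ 13 + q ^ 11 + q ^ 9 + q ^ 7 + q ^ 5 + q ^ 3 - 1) +
    ((-2949293) + (-673558 * q ^ 1) + (-1524422 * q ^ 2) + (-854357 * q ^ 3) + (-221368 * q ^ 4) + (405654 * q ^ 5) + (-2845167 * q ^ 6) + (-852256 * q ^ 7) + (-605303 * q ^ 8) + (-1241522 * q ^ 9) + (-2889280 * q ^ 10) + (-448341 * q ^ 11) + (-1829658 * q ^ 12) + (-1150402 * q ^ 13) + (340654 * q ^ 14) + (2167241 * q ^ 15) + (-310462 * q ^ 16) + (-418430 * q ^ 17) + (-1142944 * q ^ 18) + (-1918197 * q ^ 19) + (-1857517 * q ^ 20)) * (q ^ 30 - 1) = 5828949 := by ring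

theorem gcd_dvd {h g L : ℤ} {a b : ℤ} (e : a * h + b * g = L) : (Int.gcd h g : ℤ) ∣ L :=
  e ▸ dvd_add ((Int.gcd_dvd_left _ _).mul_left _) ((Int.gcd_dvd_right _ _).mul_left _)

theorem gcd_nat {q n h L : ℕ} (hq : 1 ≤ q) (hh : (h : ℤ) = ((q : ℤ) ^ 21 + (q : ℤ) ^ 20 + (q : ℤ) ^ 19 - (q : ℤ) ^ 16 + (q : ℤ) ^ 13 + (q : ℤ) ^ 11 + (q : ℤ) ^ 9 + (q : ℤ) ^ 7 + (q : ℤ) ^ 5 + (q : ℤ) ^ 3 - 1))
    {a b : ℤ} (e : a * ((q : ℤ) ^ 21 + (q : ℤ) ^ 20 + (q : ℤ) ^ 19 - (q : ℤ) ^ 16 + (q : ℤ) ^ 13 + (q : ℤ) ^ 11 + (q : ℤ) ^ 9 + (q : ℤ) ^ 7 + (q : ℤ) ^ 5 + (q : ℤ) ^ 3 - 1) + b * ((q : ℤ) ^ n - 1) = (L : ℤ)) :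
    Nat.gcd h (q ^ n - 1) ∣ L := by
  have := gcd_dvd e
  rw [← hh, show (q : ℤ) ^ n - 1 = ((q ^ n - 1 : ℕ) : ℤ) by
    rw [Nat.cast_sub (Nat.one_le_pow _ _ hq), Nat.cast_pow, Nat.cast_one], Int.gcd_natCast_natCast] at this
  exact_mod_cast this

/-- The degree one below the bound. -/
def dBad (q : ℕ) : ℕ := q ^ 29 + q ^ 23 + q ^ 19 + q ^ 17 + q ^ 13 + q ^ 11 + q ^ 7 + q - 1

/-- Its factor prime to the cyclotomic one. -/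
def hBad (q : ℕ) : ℕ :=
  q ^ 21 + q ^ 20 + q ^ 19 + q ^ 13 + q ^ 11 + q ^ 9 + q ^ 7 + q ^ 5 + q ^ 3 - (q ^ 16 + 1)

theorem hBad_cast {q : ℕ} (hq : 2 ≤ q) : (hBad q : ℤ) = ((q : ℤ) ^ 21 + (q : ℤ) ^ 20 + (q : ℤ) ^ 19 - (q : ℤ) ^ 16 + (q : ℤ) ^ 13 + (q : ℤ) ^ 11 + (q : ℤ) ^ 9 + (q : ℤ) ^ 7 + (q : ℤ) ^ 5 + (q : ℤ) ^ 3 - 1) := by
  have h1 : q ^ 16 ≤ q ^ 19 := Nat.pow_le_pow_right (by omega) (by norm_num)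
  have h2 : 1 ≤ q ^ 20 := Nat.one_le_pow _ _ (by omega)
  rw [hBad, Nat.cast_sub (by omega)]
  push_cast
  ring

theorem hBad_dvd {q : ℕ} (hq : 2 ≤ q) : hBad q ∣ dBad q := by
  have : (hBad q : ℤ) ∣ (dBad q : ℤ) := by
    refine ⟨(q : ℤ) ^ 8 - q ^ 7 + q ^ 5 - q ^ 4 + q ^ 3 - q + 1, ?_⟩
    have h1 : 1 ≤ q ^ 29 := Nat.one_le_pow _ _ (by omega)
    rw [hBad_cast hq, dBad, Nat.cast_sub (by omega)]
    push_cast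
    ring
  exact_mod_cast this

theorem hBad_coprime {q : ℕ} (hq : 2 ≤ q) : Nat.Coprime (hBad q) q := by
  rw [← Nat.isCoprime_iff_coprime, hBad_cast hq]
  exact ⟨-1, (q : ℤ) ^ 20 + q ^ 19 + q ^ 18 - q ^ 15 + q ^ 12 + q ^ 10 + q ^ 8 + q ^ 6 + q ^ 4 + q ^ 2, by ring⟩

theorem not_dvd_order {q : ℕ} (hq : 2 ≤ q) :
    ¬ dBad q ∣ q ^ 120 * (q ^ 2 - 1) * (q ^ 8 - 1) * (q ^ 12 - 1) * (q ^ 14 - 1) * (q ^ 18 - 1) * (q ^ 20 - 1) *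
      (q ^ 24 - 1) * (q ^ 30 - 1) := by
  intro hd
  have hh := hBad_cast hq
  have hhd := (hBad_dvd hq).trans hd
  rcases Nat.lt_or_ge q 13 with hlt | hge
  · interval_cases q <;> norm_num [hBad] at hhd
  rw [mul_assoc, mul_assoc, mul_assoc, mul_assoc, mul_assoc, mul_assoc, mul_assoc] at hhd
  have h2 := ((hBad_coprime hq).pow_right 120).dvd_of_dvd_mul_left hhd
  have hle : hBad q ∣ 63 * (63 * (189 * (441 * (10773 * (63 * (189 * (5828949))))))) := by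
    have s := fun a b => Nat.gcd_mul_right_dvd_mul_gcd (hBad q) a b
    refine dvd_trans (dvd_of_eq (Nat.gcd_eq_left h2).symm) ?_
    refine (s _ _).trans (mul_dvd_mul (gcd_nat (by omega) hh (bezout2 q)) ?_)
    refine (s _ _).trans (mul_dvd_mul (gcd_nat (by omega) hh (bezout8 q)) ?_)
    refine (s _ _).trans (mul_dvd_mul (gcd_nat (by omega) hh (bezout12 q)) ?_)
    refine (s _ _).trans (mul_dvd_mul (gcd_nat (by omega) hh (bezout14 q)) ?_)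
    refine (s _ _).trans (mul_dvd_mul (gcd_nat (by omega) hh (bezout18 q)) ?_)
    refine (s _ _).trans (mul_dvd_mul (gcd_nat (by omega) hh (bezout20 q)) ?_)
    refine (s _ _).trans (mul_dvd_mul (gcd_nat (by omega) hh (bezout24 q)) ?_)
    exact gcd_nat (by omega) hh (bezout30 q)
  have hb := Nat.le_of_dvd (by norm_num) hle
  have h13 : 13 ^ 21 ≤ q ^ 21 := Nat.pow_le_pow_left hge 21
  have h16 : q ^ 16 ≤ q ^ 19 := Nat.pow_le_pow_right (by omega) (by norm_num)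
  have h20 : 13 ^ 20 ≤ q ^ 20 := Nat.pow_le_pow_left hge 20
  rw [hBad] at hb
  omega

end Cfsg.Agent.E8Deg
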