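import Cfsg.Agent.E8Deg.Spec

/-!
# The orbits of the Levi factor on the characters of a block
-/

set_option autoImplicit false
set_option linter.unusedSectionVars false

namespace Cfsg.Agent.E8Deg

open Cfsg.Lie
open Module (finrank)

/-- A block of roots with its movers and the lists of moves. -/
structure Block (k : ℕ) where
  L : Fin k → ℕ
  tg : ℕ → Fin k → Option (Fin k × ℤ)
  M : List ℕ
  top : Fin k
  bot : List (Fin k)
  core : List (Fin k)
  cel : Fin k → List (ℕ × Fin k)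
  lw : Fin k → List (ℕ × Fin k)
  par : Fin k → ℕ × Fin k
  ok : BlockOk L tg M
  celOk : ∀ s, StarOk tg s (cel s) ∧ ∀ p ∈ cel s, p.1 ∈ M ∧
    ∀ j : Fin k, ∀ i ∈ (tg p.1 j).toList, j.val < i.1.val
  lwOk : ∀ s, s ∈ core → StarOk tg s (lw s) ∧ (lw s).length = 2 ∧ ∀ p ∈ lw s, p.1 ∈ M ∧
    p.2 ∈ bot ∧ ∀ j, j ∉ bot → ∀ i ∈ (tg p.1 j).toList, i.1 ∉ bot ∧ i.1 ≠ top
  parOk : ∀ s, (s = top → EdgeOk tg M (par s).1 (par s).2 s) ∧
    (s ≠ top → s < (par s).2 ∧ EdgeOk tg M (par s).1 s (par s).2)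
  coverOk : top ∉ bot ∧ (∀ p ∈ cel top, p.2 ∉ bot) ∧
    (∀ j, j = top ∨ j ∈ bot ∨ j ∈ (cel top).map Prod.snd)

namespace Block

variable {k : ℕ} (B : Block k) {F : Type*} [Field F]

theorem pm {r : ℕ} (h : r ∈ B.M) (j : Fin k) :
    ∀ i ∈ (B.tg r j).toList, i.2 = 1 ∨ i.2 = -1 :=
  fun i hi => (((B.ok r h).2 j).2.2.2.2 i hi).1

theorem cel_above (s : Fin k) (t x : Fin k → F) (hx : ∀ j, s < j → x j = 0) :
    ∀ j, s < j → app B.tg (B.cel s) t x j = 0 :=
  app_induction (P := fun y => ∀ j, s < j → y j = 0) t (fun p hp y hy j hj => by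
    rcases h : B.tg p.1 j with _ | ⟨i, c⟩
    · rw [mv_none h, hy j hj]
    · have := ((B.celOk s).2 p hp).2 j (i, c) (by simp [h])
      rw [mv_some h, hy j hj, hy i (lt_trans hj this)]
      simp) hx

theorem low_fix {s : Fin k} (hs : s ∈ B.core) (t x : Fin k → F) (hx : ∀ j, j ∉ B.bot → j ≠ B.top → x j = 0) :
    ∀ j, j ∉ B.bot → app B.tg (B.lw s) t x j = x j :=
  app_induction (P := fun y => ∀ j, j ∉ B.bot → y j = x j) t (fun p hp y hy j hj => by
    rcases h : B.tg p.1 j with _ | ⟨i, c⟩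
    · rw [mv_none h, hy j hj]
    · obtain ⟨h1, h2⟩ := (((B.lwOk s hs).2.2 p hp).2.2) j hj (i, c) (by simp [h])
      rw [mv_some h, hy j hj, hy i h1, hx i h1 h2]
      simp) fun j _ => rfl

variable [Fintype F] [DecidableEq F] {V : Type*} [AddCommGroup V] [Module ℂ V] [FiniteDimensional ℂ V]
  (ρ : Representation ℂ (Gam F) V) (ψ : AddChar F ℂ) {W : Submodule ℂ V}
  (hW : ∀ r ∈ B.M, Stable ρ W r)

include hW

theorem mult_cel (s : Fin k) (t x : Fin k → F) :
    mult ρ ψ W B.L (app B.tg (B.cel s) t x) = mult ρ ψ W B.L x :=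
  mult_app ρ ψ B.ok hW (fun p hp => ((B.celOk s).2 p hp).1) t x

theorem mult_low {s : Fin k} (hs : s ∈ B.core) (t x : Fin k → F) :
    mult ρ ψ W B.L (app B.tg (B.lw s) t x) = mult ρ ψ W B.L x :=
  mult_app ρ ψ B.ok hW (fun p hp => ((B.lwOk s hs).2.2 p hp).1) t x

theorem single_step {r : ℕ} {lo hi : Fin k} (he : EdgeOk B.tg B.M r lo hi) {a a' : F} (ha : a ≠ 0)
    (ha' : a' ≠ 0) : mult ρ ψ W B.L (Pi.single hi a) = mult ρ ψ W B.L (Pi.single lo a') := by
  obtain ⟨h1, h3, hne, hto, hback, hu1, hu2, hu3⟩ := he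
  obtain ⟨⟨i, c⟩, hc, hci⟩ := Option.map_eq_some_iff.1 hto
  obtain ⟨⟨i', c'⟩, hc', hci'⟩ := Option.map_eq_some_iff.1 hback
  obtain rfl : hi = i := hci.symm
  obtain rfl : i' = lo := hci'
  have hcF : (c : F) ≠ 0 := cast_pm (B.pm h1 i' (hi, c) (by simp [hc]))
  have hcF' : (c' : F) ≠ 0 := cast_pm (B.pm h3 hi (i', c') (by simp [hc']))
  have e1 : mv B.tg r (a' / ((c : F) * a)) (Pi.single hi a) = Pi.single hi a + Pi.single i' a' := by
    funext j
    rcases eq_or_ne j i' with rfl | hj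
    · rw [mv_some hc, Pi.add_apply, Pi.single_eq_same, Pi.single_eq_same]
      field_simp
    · rw [Pi.add_apply, Pi.single_eq_of_ne hj, add_zero]
      rcases h : B.tg r j with _ | ⟨i, e⟩
      · rw [mv_none h]
      · have : i ≠ hi := fun e' => hj (hu1 j (by simp [h, e']))
        rw [mv_some h, Pi.single_eq_of_ne this, mul_zero, add_zero]
  have e2 : mv B.tg (chevE8.neg r) (-a / ((c' : F) * a')) (Pi.single hi a + Pi.single i' a') =
      Pi.single i' a' := by
    funext j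
    rcases eq_or_ne j hi with rfl | hj
    · rw [mv_some hc']
      simp only [Pi.add_apply, Pi.single_eq_same, Pi.single_eq_of_ne hne, Pi.single_eq_of_ne hne.symm]
      field_simp
      ring
    · rcases h : B.tg (chevE8.neg r) j with _ | ⟨i, e⟩
      · rw [mv_none h]
        simp [Pi.single_eq_of_ne hj]
      · have hi1 : i ≠ i' := fun e' => hj (hu2 j (by simp [h, e']))
        have hi2 : i ≠ hi := fun e' => hu3 j (by simp [h, e'])
        rw [mv_some h]
        simp [Pi.single_eq_of_ne hj, Pi.single_eq_of_ne hi1, Pi.single_eq_of_ne hi2]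
  rw [← mult_mv ρ ψ B.ok hW h1 (a' / ((c : F) * a)) (Pi.single hi a), e1,
    ← mult_mv ρ ψ B.ok hW h3 (-a / ((c' : F) * a')), e2]

/-- The multiplicity of a character supported at one coordinate does not depend on it. -/
theorem mult_single : ∀ (n : ℕ) (s : Fin k), k - s.val ≤ n → ∀ a : F, a ≠ 0 →
    mult ρ ψ W B.L (Pi.single s a) = mult ρ ψ W B.L (Pi.single B.top 1)
  | 0, s, h, _, _ => absurd s.isLt (by omega)
  | n + 1, s, h, a, ha => by
    rcases eq_or_ne s B.top with rfl | hs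
    · have he := (B.parOk B.top).1 rfl
      rw [B.single_step ρ ψ hW he ha one_ne_zero, B.single_step ρ ψ hW he one_ne_zero one_ne_zero]
    · obtain ⟨hlt, he⟩ := (B.parOk s).2 hs
      rw [← B.single_step ρ ψ hW he one_ne_zero ha]
      exact mult_single n _ (by have := Fin.lt_def.1 hlt; omega) 1 one_ne_zero

theorem reach_top : ∀ (n : ℕ) (s : Fin k), k - s.val ≤ n → ∀ x : Fin k → F, x s ≠ 0 →
    ∃ y : Fin k → F, y B.top ≠ 0 ∧ mult ρ ψ W B.L y = mult ρ ψ W B.L x
  | 0, s, h, _, _ => absurd s.isLt (by omega)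
  | n + 1, s, h, x, hx => by
    rcases eq_or_ne s B.top with rfl | hs
    · exact ⟨x, hx, rfl⟩
    obtain ⟨hlt, -, h3, -, -, hback, -, -, -⟩ := (B.parOk s).2 hs
    have hn : k - (B.par s).2.val ≤ n := by have := Fin.lt_def.1 hlt; omega
    by_cases hs' : x (B.par s).2 = 0
    · obtain ⟨⟨i, c⟩, hc, hci⟩ := Option.map_eq_some_iff.1 hback
      obtain rfl : i = s := hci
      have hcF : (c : F) ≠ 0 := cast_pm (B.pm h3 (B.par i).2 (i, c) (by simp [hc]))
      obtain ⟨y, hy, he⟩ := reach_top n _ hn (mv B.tg (chevE8.neg (B.par i).1) 1 x) (by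
        rw [mv_some hc, hs', zero_add, mul_one]
        exact mul_ne_zero hcF hx)
      exact ⟨y, hy, he.trans (mult_mv ρ ψ B.ok hW h3 1 x)⟩
    · exact reach_top n _ hn x hs'

theorem normalise (x : Fin k → F) (hx : x ≠ 0) : ∃ y : Fin k → F, y B.top ≠ 0 ∧
    (∀ j, j ∉ B.bot → j ≠ B.top → y j = 0) ∧ mult ρ ψ W B.L y = mult ρ ψ W B.L x := by
  obtain ⟨s, hs⟩ := Function.ne_iff.1 hx
  obtain ⟨y, hy, he⟩ := B.reach_top ρ ψ hW k s (by omega) x hs
  obtain ⟨t, ht⟩ := star_solve (B.celOk B.top).1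
    (fun p hp => B.pm ((B.celOk _).2 p hp).1 _) 0 y hy
  refine ⟨app B.tg (B.cel B.top) t y, ?_, fun j hj hjt => ?_, (B.mult_cel ρ ψ hW _ t y).trans he⟩
  · rw [(star_spec (B.celOk B.top).1 t y).1]; exact hy
  · obtain ⟨p, hp, rfl⟩ := List.mem_map.1 (((B.coverOk.2.2 j).resolve_left hjt).resolve_left hj)
    exact ht p hp

/-- A character supported on a row has the multiplicity of the singles. -/
theorem mult_row {row : List (Fin k)} {rl : Fin k → List (ℕ × Fin k)}
    (hrow : ∀ s, s ∈ row → StarOk B.tg s (rl s) ∧ (∀ j, j ∈ row → j = s ∨ j ∈ (rl s).map Prod.snd) ∧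
      ∀ p ∈ rl s, p.1 ∈ B.M ∧ ∀ j, j ∉ row → ∀ i ∈ (B.tg p.1 j).toList, i.1 ∉ row)
    (x : Fin k → F) (hx : x ≠ 0) (hsupp : ∀ j, j ∉ row → x j = 0) :
    mult ρ ψ W B.L x = mult ρ ψ W B.L (Pi.single B.top 1) := by
  obtain ⟨s, hs⟩ := Function.ne_iff.1 hx
  have hsb : s ∈ row := by
    by_contra h
    exact hs (hsupp s h)
  obtain ⟨hst, hcov, hin⟩ := hrow s hsb
  obtain ⟨t, ht⟩ := star_solve hst (fun p hp => B.pm (hin p hp).1 _) 0 x hs
  have hfix : ∀ j, j ∉ row → app B.tg (rl s) t x j = x j :=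
    app_induction (P := fun y => ∀ j, j ∉ row → y j = x j) t (fun p hp y hy j hj => by
      rcases h : B.tg p.1 j with _ | ⟨i, c⟩
      · rw [mv_none h, hy j hj]
      · have h1 := (hin p hp).2 j hj (i, c) (by simp [h])
        rw [mv_some h, hy j hj, hy i h1, hsupp i h1]
        simp) fun j _ => rfl
  have e : app B.tg (rl s) t x = Pi.single s (x s) := by
    funext j
    rcases eq_or_ne j s with rfl | hj
    · rw [Pi.single_eq_same, (star_spec hst t x).1]
    · rw [Pi.single_eq_of_ne hj]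
      by_cases hjb : j ∈ row
      · obtain ⟨p, hp, rfl⟩ := List.mem_map.1 ((hcov j hjb).resolve_left hj)
        exact ht p hp
      · rw [hfix j hjb, hsupp j hjb]
  rw [← mult_app ρ ψ B.ok hW (fun p hp => (hin p hp).1) t x, e]
  exact B.mult_single ρ ψ hW k s (by omega) _ hs

omit [DecidableEq F] hW in
theorem card_coords (l : List (ℕ × Fin k)) (h : (l.map Prod.snd).Nodup) :
    Fintype.card (↥(l.map Prod.snd).toFinset → F) = Fintype.card F ^ l.length := by
  rw [Fintype.card_fun, Fintype.card_coe, List.toFinset_card_of_nodup h, List.length_map]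

omit hW in
/-- Extension by zero. -/
def ext0 (l : List (ℕ × Fin k)) (u : ↥(l.map Prod.snd).toFinset → F) : Fin k → F :=
  fun j => if h : j ∈ (l.map Prod.snd).toFinset then u ⟨j, h⟩ else 0

omit hW in
theorem star_inj {s : Fin k} {l : List (ℕ × Fin k)} (h : StarOk B.tg s l)
    (hr : ∀ p ∈ l, p.1 ∈ B.M) {x x' : Fin k → F} (hxs : x s = x' s) (hs : x s ≠ 0)
    (hx : ∀ p ∈ l, x p.2 = x' p.2) {u u' : ↥(l.map Prod.snd).toFinset → F}
    (e : app B.tg l (ext0 l u) x = app B.tg l (ext0 l u') x') : u = u' := by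
  funext ⟨j, hj⟩
  obtain ⟨p, hp, rfl⟩ := List.mem_map.1 (List.mem_toFinset.1 hj)
  obtain ⟨c, hc, he⟩ := (star_spec h (ext0 l u) x).2 p hp
  obtain ⟨c', hc', he'⟩ := (star_spec h (ext0 l u') x').2 p hp
  obtain rfl : c = c' := by rw [hc] at hc'; simpa using hc'
  have hc0 : (c : F) ≠ 0 := cast_pm (B.pm (hr p hp) p.2 (s, c) (by simp [hc]))
  have := congrFun e p.2
  rw [he, he', hx p hp, ← hxs, ext0, dif_pos hj, ext0, dif_pos hj] at this
  exact mul_left_cancel₀ hc0 (mul_right_cancel₀ hs (add_left_cancel this))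

theorem big (y : Fin k → F) (hy : y B.top ≠ 0) (hmid : ∀ j, j ∉ B.bot → j ≠ B.top → y j = 0)
    (s : Fin k) (hsb : s ∈ B.core) (hs : y s ≠ 0) :
    mult ρ ψ W B.L y * Fintype.card F ^ ((B.cel B.top).length + (B.lw s).length) ≤
      ∑ x ∈ (Finset.univ : Finset (Fin k → F)).erase 0, mult ρ ψ W B.L x := by
  classical
  let f : (↥((B.cel B.top).map Prod.snd).toFinset → F) × (↥((B.lw s).map Prod.snd).toFinset → F) →
      (Fin k → F) :=
    fun q => app B.tg (B.cel B.top) (ext0 _ q.1) (app B.tg (B.lw s) (ext0 _ q.2) y)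
  have hz : ∀ (t : Fin k → F) j, j ∉ B.bot → app B.tg (B.lw s) t y j = y j := fun t => B.low_fix hsb t y hmid
  have hf : Function.Injective f := by
    rintro ⟨t, u⟩ ⟨t', u'⟩ e
    have et : t = t' := B.star_inj (B.celOk _).1 (fun p hp => ((B.celOk _).2 p hp).1)
      (x := app B.tg (B.lw s) (ext0 _ u) y) (x' := app B.tg (B.lw s) (ext0 _ u') y)
      (by rw [hz _ _ B.coverOk.1, hz _ _ B.coverOk.1]) (by rw [hz _ _ B.coverOk.1]; exact hy)
      (fun p hp => by rw [hz _ _ (B.coverOk.2.1 p hp), hz _ _ (B.coverOk.2.1 p hp)]) e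
    subst et
    have e' := app_injective B.ok (fun p hp => ((B.celOk B.top).2 p hp).1) _ e
    obtain rfl : u = u' := B.star_inj (B.lwOk s hsb).1 (fun p hp => ((B.lwOk s hsb).2.2 p hp).1) rfl hs (fun p _ => rfl) e'
    rfl
  have hne : ∀ q, f q ≠ 0 := fun q h => by
    have := congrFun h B.top
    simp only [f, (star_spec (B.celOk B.top).1 _ _).1, hz _ _ B.coverOk.1, Pi.zero_apply] at this
    exact hy this
  have hm : ∀ q, mult ρ ψ W B.L (f q) = mult ρ ψ W B.L y := fun q =>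
    (B.mult_cel ρ ψ hW _ _ _).trans (B.mult_low ρ ψ hW hsb _ _)
  refine le_trans (le_of_eq ?_) (Finset.sum_le_sum_of_subset (f := mult ρ ψ W B.L)
    (s := Finset.univ.image f) (fun z hz => ?_))
  · rw [Finset.sum_image hf.injOn, Finset.sum_congr rfl (fun q _ => hm q), Finset.sum_const, Finset.card_univ,
      Fintype.card_prod, card_coords _ (B.celOk B.top).1.1, card_coords _ (B.lwOk s hsb).1.1, smul_eq_mul, pow_add,
      mul_comm]
  · obtain ⟨q, -, rfl⟩ := Finset.mem_image.1 hz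
    exact Finset.mem_erase.2 ⟨hne q, Finset.mem_univ _⟩

/-- The orbit of the characters supported at one coordinate. -/
theorem cells_le :
    mult ρ ψ W B.L (Pi.single B.top (1 : F)) *
        ((Fintype.card F - 1) * ∑ s : Fin k, Fintype.card F ^ (B.cel s).length) ≤
      ∑ x ∈ (Finset.univ : Finset (Fin k → F)).erase 0, mult ρ ψ W B.L x := by
  classical
  let f : (Σ s : Fin k, Fˣ × (↥((B.cel s).map Prod.snd).toFinset → F)) → (Fin k → F) :=
    fun q => app B.tg (B.cel q.1) (ext0 _ q.2.2) (Pi.single q.1 (q.2.1 : F))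
  have hs : ∀ q, f q q.1 = (q.2.1 : F) := fun q => by
    simp only [f, (star_spec (B.celOk q.1).1 _ _).1, Pi.single_eq_same]
  have hab : ∀ q, ∀ j, q.1 < j → f q j = 0 := fun q =>
    B.cel_above _ _ _ fun j hj => Pi.single_eq_of_ne hj.ne' _
  have hf : Function.Injective f := by
    rintro ⟨s, a, u⟩ ⟨s', a', u'⟩ e
    have h1 : s = s' := by
      rcases lt_trichotomy s s' with h | h | h
      · have := hab ⟨s, a, u⟩ s' h
        rw [e, hs ⟨s', a', u'⟩] at this
        exact absurd this a'.ne_zero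
      · exact h
      · have := hab ⟨s', a', u'⟩ s h
        rw [← e, hs ⟨s, a, u⟩] at this
        exact absurd this a.ne_zero
    subst h1
    have h2 : a = a' := Units.ext (by rw [← hs ⟨s, a, u⟩, e, hs ⟨s, a', u'⟩])
    subst h2
    obtain rfl : u = u' := B.star_inj (B.celOk s).1 (fun p hp => ((B.celOk s).2 p hp).1) rfl (by simp) (fun p _ => rfl) e
    rfl
  have hm : ∀ q, mult ρ ψ W B.L (f q) = mult ρ ψ W B.L (Pi.single B.top 1) := fun q =>
    (B.mult_cel ρ ψ hW _ _ _).trans (B.mult_single ρ ψ hW k q.1 (by omega) _ q.2.1.ne_zero)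
  refine le_trans (le_of_eq ?_) (Finset.sum_le_sum_of_subset (f := mult ρ ψ W B.L)
    (s := Finset.univ.image f) (fun z hz => ?_))
  · rw [Finset.sum_image hf.injOn, Finset.sum_congr rfl (fun q _ => hm q), Finset.sum_const, Finset.card_univ,
      Fintype.card_sigma, smul_eq_mul, mul_comm, Finset.mul_sum]
    congr 1
    refine Finset.sum_congr rfl fun s _ => ?_
    rw [Fintype.card_prod, card_coords _ (B.celOk s).1.1, Fintype.card_units]
  · obtain ⟨q, -, rfl⟩ := Finset.mem_image.1 hz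
    refine Finset.mem_erase.2 ⟨fun h => q.2.1.ne_zero ?_, Finset.mem_univ _⟩
    rw [← hs q, h]; rfl

/-- A nonzero character occurring gives a large orbit or a character supported at one coordinate. -/
theorem dichotomy {n : ℕ} (hn : ∀ s ∈ B.core, n ≤ (B.cel B.top).length + (B.lw s).length)
    (hesc : ∀ y : Fin k → F, y B.top ≠ 0 → (∀ j, j ∉ B.bot → j ≠ B.top → y j = 0) →
      ∀ s ∈ B.bot, y s ≠ 0 → ∃ z : Fin k → F, z B.top ≠ 0 ∧ (∀ j, j ∉ B.bot → j ≠ B.top → z j = 0) ∧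
        (∃ s ∈ B.core, z s ≠ 0) ∧ mult ρ ψ W B.L z = mult ρ ψ W B.L y)
    (x : Fin k → F) (hx : x ≠ 0) (hpos : 0 < mult ρ ψ W B.L x) :
    Fintype.card F ^ n ≤ ∑ x ∈ (Finset.univ : Finset (Fin k → F)).erase 0, mult ρ ψ W B.L x ∨
      0 < mult ρ ψ W B.L (Pi.single B.top (1 : F)) := by
  obtain ⟨y, hy, hmid, he⟩ := B.normalise ρ ψ hW x hx
  by_cases h : ∃ s ∈ B.bot, y s ≠ 0
  · obtain ⟨s', hsb', hs'⟩ := h
    obtain ⟨z, hz, hzmid, ⟨s, hsb, hs⟩, hze⟩ := hesc y hy hmid s' hsb' hs'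
    left
    refine le_trans ?_ (B.big ρ ψ hW z hz hzmid s hsb hs)
    calc Fintype.card F ^ n ≤ Fintype.card F ^ ((B.cel B.top).length + (B.lw s).length) :=
          Nat.pow_le_pow_right Fintype.card_pos (hn s hsb)
      _ ≤ _ := Nat.le_mul_of_pos_left _ (hze ▸ he ▸ hpos)
  · right
    have e : y = Pi.single B.top (y B.top) := by
      funext j
      rcases eq_or_ne j B.top with rfl | hj
      · simp
      · rw [Pi.single_eq_of_ne hj]
        by_cases hjb : j ∈ B.bot
        · by_contra hne; exact h ⟨j, hjb, hne⟩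
        · exact hmid j hjb hj
    rw [← B.mult_single ρ ψ hW k B.top (by omega) _ hy, ← e, he]
    exact hpos

end Block

end Cfsg.Agent.E8Deg
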