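import Cfsg.Agent.E8Deg.Block
import Cfsg.Agent.E8Deg.Chk2
import Cfsg.Agent.E8Deg.Tab.C0
import Cfsg.Agent.E8Deg.Tab.C1
import Cfsg.Agent.E8Deg.Tab.C2
import Cfsg.Agent.E8Deg.Tab.C3

/-!
# The four blocks of E₈(q)
-/

set_option autoImplicit false
set_option maxRecDepth 10000

namespace Cfsg.Agent.E8Deg

open Cfsg.Lie

/-- The radical of type E₇ without its centre. -/
def b0 : Block 56 :=
  ⟨L0, tg0, M0, Fin.last _, bot0, core0, cel0, lw0, par0, blockOk0, celOk0, lwOk0, parOk0, coverOk0⟩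

/-- The abelian radical of type E₆ inside E₇. -/
def b1 : Block 27 :=
  ⟨L1, tg1, M1, Fin.last _, bot1, core1, cel1, lw1, par1, blockOk1, celOk1, lwOk1, parOk1, coverOk1⟩

/-- The abelian radical of type D₅ inside E₆. -/
def b2 : Block 16 :=
  ⟨L2, tg2, M2, Fin.last _, bot2, core2, cel2, lw2, par2, blockOk2, celOk2, lwOk2, parOk2, coverOk2⟩

/-- The abelian radical of type A₄ inside D₅. -/
def b3 : Block 10 :=
  ⟨L3, tg3, M3, Fin.last _, bot3, core3, cel3, lw3, par3, blockOk3, celOk3, lwOk3, parOk3, coverOk3⟩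

/-- The orbit size of the single characters on the 56 roots. -/
theorem cells0 (q : ℕ) (hq : 1 ≤ q) :
    (q - 1) * ∑ s : Fin 56, q ^ (b0.cel s).length + q ^ 9 + q ^ 5 + 1 = q ^ 28 + q ^ 23 + q ^ 19 := by
  have e : ∑ s : Fin 56, q ^ (b0.cel s).length = ((List.ofFn fun s => (cel0 s).length).map (q ^ ·)).sum := by
    rw [List.map_ofFn, List.sum_ofFn]; rfl
  rw [e, cel_lengths.1]
  obtain ⟨p, rfl⟩ : ∃ p, q = p + 1 := ⟨q - 1, by omega⟩
  simp only [List.map_cons, List.map_nil, List.sum_cons, List.sum_nil, Nat.add_sub_cancel]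
  ring

/-- The orbit size of the single characters on the 27 roots. -/
theorem cells1 (q : ℕ) (hq : 1 ≤ q) :
    (q - 1) * ∑ s : Fin 27, q ^ (b1.cel s).length + q ^ 8 + q ^ 4 + 1 = q ^ 17 + q ^ 13 + q ^ 9 := by
  have e : ∑ s : Fin 27, q ^ (b1.cel s).length = ((List.ofFn fun s => (cel1 s).length).map (q ^ ·)).sum := by
    rw [List.map_ofFn, List.sum_ofFn]; rfl
  rw [e, cel_lengths.2.1]
  obtain ⟨p, rfl⟩ : ∃ p, q = p + 1 := ⟨q - 1, by omega⟩
  simp only [List.map_cons, List.map_nil, List.sum_cons, List.sum_nil, Nat.add_sub_cancel]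
  ring

/-- The orbit size of the single characters on the 16 roots. -/
theorem cells2 (q : ℕ) (hq : 1 ≤ q) :
    (q - 1) * ∑ s : Fin 16, q ^ (b2.cel s).length + q ^ 3 + 1 = q ^ 11 + q ^ 8 := by
  have e : ∑ s : Fin 16, q ^ (b2.cel s).length = ((List.ofFn fun s => (cel2 s).length).map (q ^ ·)).sum := by
    rw [List.map_ofFn, List.sum_ofFn]; rfl
  rw [e, cel_lengths.2.2.1]
  obtain ⟨p, rfl⟩ : ∃ p, q = p + 1 := ⟨q - 1, by omega⟩
  simp only [List.map_cons, List.map_nil, List.sum_cons, List.sum_nil, Nat.add_sub_cancel]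
  ring

/-- The orbit size of the single characters on the 10 roots. -/
theorem cells3 (q : ℕ) (hq : 1 ≤ q) :
    (q - 1) * ∑ s : Fin 10, q ^ (b3.cel s).length + q ^ 2 + 1 = q ^ 7 + q ^ 5 := by
  have e : ∑ s : Fin 10, q ^ (b3.cel s).length = ((List.ofFn fun s => (cel3 s).length).map (q ^ ·)).sum := by
    rw [List.map_ofFn, List.sum_ofFn]; rfl
  rw [e, cel_lengths.2.2.2]
  obtain ⟨p, rfl⟩ : ∃ p, q = p + 1 := ⟨q - 1, by omega⟩
  simp only [List.map_cons, List.map_nil, List.sum_cons, List.sum_nil, Nat.add_sub_cancel]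
  ring

variable {F : Type*} [Field F] [Fintype F] [DecidableEq F] {V : Type*} [AddCommGroup V] [Module ℂ V]
  [FiniteDimensional ℂ V] (ρ : Representation ℂ (Gam F) V) (ψ : AddChar F ℂ) {W : Submodule ℂ V}

/-- In the largest block the lowest coordinate can be moved into the core. -/
theorem esc0 (hW : ∀ r ∈ b0.M, Stable ρ W r) (y : Fin 56 → F) (hy : y b0.top ≠ 0)
    (hmid : ∀ j, j ∉ b0.bot → j ≠ b0.top → y j = 0) (s : Fin 56) (hs : s ∈ b0.bot) (hys : y s ≠ 0) :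
    ∃ z : Fin 56 → F, z b0.top ≠ 0 ∧ (∀ j, j ∉ b0.bot → j ≠ b0.top → z j = 0) ∧
      (∃ s ∈ b0.core, z s ≠ 0) ∧ mult ρ ψ W b0.L z = mult ρ ψ W b0.L y := by
  by_cases h : ∃ s ∈ b0.core, y s ≠ 0
  · exact ⟨y, hy, hmid, h, rfl⟩
  push Not at h
  obtain ⟨hM, h1, hc1, hbot, hsrc⟩ := esc_ok
  have hs0 : s = 0 := (hbot s hs).resolve_left fun hc => hys (h s hc)
  subst hs0
  obtain ⟨⟨i, c⟩, hic, hfst⟩ := Option.map_eq_some_iff.1 h1
  obtain rfl : i = 0 := hfst
  have hc : (c : F) ≠ 0 := cast_pm (b0.pm hM 1 (0, c) (by show (0, c) ∈ (tg0 118 1).toList; simp [hic]))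
  have hkeep : ∀ j, j ≠ 1 → mv tg0 118 (1 : F) y j = y j := by
    intro j hj
    rcases e : tg0 118 j with _ | ⟨i, d⟩
    · rw [mv_none e]
    · have h0 : i ≠ 0 := fun e' => (hsrc j).2 hj (by simp [e, e'])
      have ht : i ≠ Fin.last _ := fun e' => (hsrc j).1 (by simp [e, e'])
      have hi : y i = 0 := by
        by_cases hib : i ∈ bot0
        · exact h i ((hbot i hib).resolve_right h0)
        · exact hmid i hib ht
      rw [mv_some e, hi, mul_zero, add_zero]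
  refine ⟨mv tg0 118 (1 : F) y, ?_, fun j hj hjt => ?_, ⟨1, hc1, ?_⟩, mult_mv ρ ψ b0.ok hW hM 1 y⟩
  · rw [hkeep b0.top (show (Fin.last 55 : Fin 56) ≠ 1 by decide)]
    exact hy
  · rw [hkeep j (fun e => hj (e ▸ (show (1 : Fin 56) ∈ bot0 by decide +kernel)))]
    exact hmid j hj hjt
  · rw [mv_some hic, h 1 hc1, zero_add, mul_one]
    exact mul_ne_zero hc hys

/-- In the other blocks the core is everything that is low. -/
theorem esc_of_core {k : ℕ} (B : Block k) (h : ∀ s ∈ B.bot, s ∈ B.core) (y : Fin k → F) (hy : y B.top ≠ 0)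
    (hmid : ∀ j, j ∉ B.bot → j ≠ B.top → y j = 0) (s : Fin k) (hs : s ∈ B.bot) (hys : y s ≠ 0) :
    ∃ z : Fin k → F, z B.top ≠ 0 ∧ (∀ j, j ∉ B.bot → j ≠ B.top → z j = 0) ∧
      (∃ s ∈ B.core, z s ≠ 0) ∧ mult ρ ψ W B.L z = mult ρ ψ W B.L y :=
  ⟨y, hy, hmid, ⟨s, h s hs, hys⟩, rfl⟩

end Cfsg.Agent.E8Deg
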