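import Mathlib

/-!
# The budget of dimensions
-/

set_option autoImplicit false

namespace Cfsg.Agent.E8Deg

/-- The arithmetic of the budget: each way of exceeding it is impossible. -/
theorem budget {q : ℕ} (hq : 2 ≤ q) {K O0 O1 O2 O3 : ℕ} (hK : K + q ^ 28 = q ^ 29)
    (h0 : O0 + q ^ 9 + q ^ 5 + 1 = q ^ 28 + q ^ 23 + q ^ 19) (h1 : O1 + q ^ 8 + q ^ 4 + 1 = q ^ 17 + q ^ 13 + q ^ 9)
    (h2' : O2 + q ^ 3 + 1 = q ^ 11 + q ^ 8) (h3 : O3 + q ^ 2 + 1 = q ^ 7 + q ^ 5) :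
    q ^ 29 + q ^ 23 + q ^ 19 + q ^ 17 + q ^ 13 + q ^ 11 + q ^ 7 + q ≤ K + q ^ 29 ∧
    q ^ 29 + q ^ 23 + q ^ 19 + q ^ 17 + q ^ 13 + q ^ 11 + q ^ 7 + q ≤ K + 2 * O0 ∧
    q ^ 29 + q ^ 23 + q ^ 19 + q ^ 17 + q ^ 13 + q ^ 11 + q ^ 7 + q ≤ K + O0 + q ^ 18 ∧
    q ^ 29 + q ^ 23 + q ^ 19 + q ^ 17 + q ^ 13 + q ^ 11 + q ^ 7 + q ≤ K + O0 + 2 * O1 ∧
    q ^ 29 + q ^ 23 + q ^ 19 + q ^ 17 + q ^ 13 + q ^ 11 + q ^ 7 + q ≤ K + O0 + O1 + q ^ 12 ∧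
    q ^ 29 + q ^ 23 + q ^ 19 + q ^ 17 + q ^ 13 + q ^ 11 + q ^ 7 + q ≤ K + O0 + O1 + 2 * O2 ∧
    O3 ≤ q ^ 8 := by
  have h2 : ∀ a : ℕ, 2 * q ^ a ≤ q ^ (a + 1) := fun a => by
    rw [pow_succ, mul_comm]; exact Nat.mul_le_mul_left _ hq
  have := h2 0
  have := h2 1
  have := h2 2
  have := h2 3
  have := h2 4
  have := h2 5
  have := h2 6
  have := h2 7
  have := h2 8
  have := h2 9
  have := h2 10
  have := h2 11
  have := h2 12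
  have := h2 13
  have := h2 14
  have := h2 15
  have := h2 16
  have := h2 17
  have := h2 18
  have := h2 19
  have := h2 20
  have := h2 21
  have := h2 22
  have := h2 23
  have := h2 24
  have := h2 25
  have := h2 26
  have := h2 27
  have := h2 28
  simp only [pow_one, pow_zero, Nat.reduceAdd] at *
  omega

end Cfsg.Agent.E8Deg
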