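import Cfsg.Agent.E8Deg.Tab.Sets
import Cfsg.Agent.E8Deg.Tab.T0
import Cfsg.Agent.E8Deg.Tab.T1
import Cfsg.Agent.E8Deg.Tab.T2
import Cfsg.Agent.E8Deg.Tab.T3
import Cfsg.Agent.E8Deg.SLHom

/-!
# Checks on the root sets
-/

set_option autoImplicit false
set_option synthInstance.maxSize 2000
set_option synthInstance.maxHeartbeats 200000
set_option maxRecDepth 20000

namespace Cfsg.Agent.E8Deg

open Cfsg.Lie

/-- The second roots of a derivation. -/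
abbrev bs (LV : List ℕ) (l : List (ℕ × ℕ × ℕ × ℤ)) : List ℕ :=
  (l.map fun x => x.2.2.1).filter fun b => decide (b ∈ LV)

theorem lt_L : (∀ j, L0 j < 240) ∧ (∀ j, L1 j < 240) ∧ (∀ j, L2 j < 240) ∧ ∀ j, L3 j < 240 := by decide +kernel

theorem comm_L0 : ∀ a b : Fin 56, a < b → L0 b ≠ L0 a ∧ L0 b ≠ chevE8.neg (L0 a) ∧
    ∀ c ∈ chevE8.commTerms (L0 a) (L0 b), c.1 ∈ [239] := by decide +kernel

theorem comm_L1 : ∀ a b : Fin 27, a < b → L1 b ≠ L1 a ∧ L1 b ≠ chevE8.neg (L1 a) ∧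
    ∀ c ∈ chevE8.commTerms (L1 a) (L1 b), c.1 ∈ PU0 := by decide +kernel

theorem comm_L2 : ∀ a b : Fin 16, a < b → L2 b ≠ L2 a ∧ L2 b ≠ chevE8.neg (L2 a) ∧
    ∀ c ∈ chevE8.commTerms (L2 a) (L2 b), c.1 ∈ PU1 := by decide +kernel

theorem comm_L3 : ∀ a b : Fin 10, a < b → L3 b ≠ L3 a ∧ L3 b ≠ chevE8.neg (L3 a) ∧
    ∀ c ∈ chevE8.commTerms (L3 a) (L3 b), c.1 ∈ PU2 := by decide +kernel

theorem norm_Z : ∀ r ∈ M0 ++ List.ofFn L0 ++ bs LV0 spreadZ, r < 240 ∧ NormOk [239] r := by decide +kernel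

theorem norm_U0 : ∀ r ∈ M1 ++ List.ofFn L1 ++ bs LV1 spread1, r < 240 ∧ (r ∈ M0 ∨ NormOk PU0 r) := by
  decide +kernel

theorem norm_U1 : ∀ r ∈ M2 ++ List.ofFn L2 ++ bs LV2 spread2,
    r < 240 ∧ ((r ∈ M1 ∧ r ∈ M1 ++ List.ofFn L1 ++ bs LV1 spread1) ∨ NormOk PU1 r) := by decide +kernel

theorem norm_U2 : ∀ r ∈ M3 ++ List.ofFn L3 ++ bs LV3 spread3,
    r < 240 ∧ ((r ∈ M2 ∧ r ∈ M2 ++ List.ofFn L2 ++ bs LV2 spread2) ∨ NormOk PU2 r) := by decide +kernel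

theorem norm_A : ∀ r ∈ row0.map L0 ++ row1.map L1 ++ row2.map L2, r < 240 ∧ NormOk PA r := by decide +kernel

theorem norm_SL : ∀ i j : Fin 8, i.val + 1 = j.val ∨ j.val + 1 = i.val → NormOk PA (rA i j) := by decide +kernel

theorem norm_Y0 : NormOk PY0 120 := by decide +kernel

theorem norm_Y1 : NormOk PY1 121 := by decide +kernel

theorem norm_Y2 : NormOk PY2 162 := by decide +kernel

end Cfsg.Agent.E8Deg
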