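import Cfsg.Agent.E8Deg.Tab.Half

/-!
# Checks on the level of the highest root
-/

set_option autoImplicit false
set_option synthInstance.maxSize 2000
set_option synthInstance.maxHeartbeats 200000
set_option maxRecDepth 20000

namespace Cfsg.Agent.E8Deg

open Cfsg.Lie

theorem hA_ok : ∀ j : Fin 28, hA j < 240 ∧ hP j < 240 ∧ hA j ≠ 239 ∧ hA j ≠ chevE8.neg 239 ∧
    chevE8.commTerms 239 (hA j) = [] ∧ hP j ≠ 239 ∧ hP j ≠ chevE8.neg 239 ∧
    chevE8.commTerms 239 (hP j) = [] := by decide +kernel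

theorem hA_comm : ∀ i j : Fin 28, i ≠ j → hA j ≠ hA i ∧ hA j ≠ chevE8.neg (hA i) ∧
    chevE8.commTerms (hA i) (hA j) = [] := by decide +kernel

theorem hP_comm : ∀ s j : Fin 28, hA j ≠ hP s ∧ hA j ≠ chevE8.neg (hP s) ∧
    (j ≠ s → chevE8.commTerms (hP s) (hA j) = []) := by decide +kernel

theorem hP_pair : ∀ s : Fin 28, ∃ c ∈ ([1, -1] : List ℤ),
    chevE8.commTerms (hP s) (hA s) = [(239, c, 1, 1)] := by decide +kernel

theorem hA_last : hA 27 = 238 := by decide +kernel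

theorem refl8 : chevE8.reflectRoot 7 238 = 239 ∧ chevE8.reflectRoot 7 120 = 119 ∧
    chevE8.reflectRoot 7 119 = 120 := by decide +kernel

end Cfsg.Agent.E8Deg
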