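import Cfsg.Prelude.Def_ChevE8
import Cfsg.Prelude.Def_ChevStructure

/-!
# What is checked about the tables of E₈
-/

set_option autoImplicit false

namespace Cfsg.Agent.E8Deg

open Cfsg.Lie

/-- Reading a table of targets. -/
def look {k : ℕ} (tb : List (ℕ × List (ℕ × ℕ × ℤ))) (r : ℕ) (j : Fin k) : Option (Fin k × ℤ) :=
  ((tb.find? fun p => p.1 == r).bind fun p => p.2.find? fun q => q.1 == j.val).bind fun q =>
    if h : q.2.1 < k then some (⟨q.2.1, h⟩, q.2.2) else none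

/-- The movers act on the block as the table says. -/
def BlockOk {k : ℕ} (L : Fin k → ℕ) (tg : ℕ → Fin k → Option (Fin k × ℤ)) (M : List ℕ) : Prop :=
  ∀ r ∈ M, r < 240 ∧ ∀ j : Fin k, L j < 240 ∧ L j ≠ r ∧ L j ≠ chevE8.neg r ∧
    chevE8.commTerms r (L j) = (tg r j).elim [] (fun p => [(L p.1, -p.2, 1, 1)]) ∧
    ∀ p ∈ (tg r j).toList, (p.2 = 1 ∨ p.2 = -1) ∧ tg r p.1 = none

/-- Independent moves from a pivot. -/
def StarOk {k : ℕ} (tg : ℕ → Fin k → Option (Fin k × ℤ)) (s : Fin k) (l : List (ℕ × Fin k)) : Prop :=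
  (l.map Prod.snd).Nodup ∧ ∀ p ∈ l, (tg p.1 p.2).map Prod.fst = some s ∧ tg p.1 s = none ∧
    ∀ p' ∈ l, p' ≠ p → tg p'.1 p.2 = none

instance {k : ℕ} (tg : ℕ → Fin k → Option (Fin k × ℤ)) (s : Fin k) (l : List (ℕ × Fin k)) :
    Decidable (StarOk tg s l) :=
  inferInstanceAs (Decidable (_ ∧ _))

/-- An edge between `lo` and `hi`: a root moving one way, its negative the other, each nothing else. -/
def EdgeOk {k : ℕ} (tg : ℕ → Fin k → Option (Fin k × ℤ)) (M : List ℕ) (r : ℕ) (lo hi : Fin k) : Prop :=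
  r ∈ M ∧ chevE8.neg r ∈ M ∧ lo ≠ hi ∧ (tg r lo).map Prod.fst = some hi ∧
    (tg (chevE8.neg r) hi).map Prod.fst = some lo ∧
    (∀ j, (tg r j).map Prod.fst = some hi → j = lo) ∧
    (∀ j, (tg (chevE8.neg r) j).map Prod.fst = some lo → j = hi) ∧
    ∀ j, (tg (chevE8.neg r) j).map Prod.fst ≠ some hi

instance {k : ℕ} (tg : ℕ → Fin k → Option (Fin k × ℤ)) (M : List ℕ) (r : ℕ) (lo hi : Fin k) :
    Decidable (EdgeOk tg M r lo hi) :=
  inferInstanceAs (Decidable (_ ∧ _))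

/-- The root groups of `P` are normalised by that of `r`, up to products inside `P`. -/
def NormOk (P : List ℕ) (r : ℕ) : Prop :=
  ∀ s ∈ P, s < 240 ∧ (s = r ∨ (s ≠ chevE8.neg r ∧ ∀ c ∈ chevE8.commTerms r s, c.1 ∈ P))

instance (P : List ℕ) (r : ℕ) : Decidable (NormOk P r) := inferInstanceAs (Decidable (∀ _ ∈ _, _))

/-- One commutator `(r, a, b, c)`: the root `r` is `a + b`. -/
def CommOk (x : ℕ × ℕ × ℕ × ℤ) : Prop :=
  x.2.1 < 240 ∧ x.2.2.1 < 240 ∧ x.2.2.1 ≠ x.2.1 ∧ x.2.2.1 ≠ chevE8.neg x.2.1 ∧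
    (x.2.2.2 = 1 ∨ x.2.2.2 = -1) ∧ chevE8.commTerms x.2.1 x.2.2.1 = [(x.1, x.2.2.2, 1, 1)]

instance (x : ℕ × ℕ × ℕ × ℤ) : Decidable (CommOk x) := inferInstanceAs (Decidable (_ ∧ _))

/-- A derivation starting from known roots, using also a stable set. -/
def Derives (stable : List ℕ) : List ℕ → List (ℕ × ℕ × ℕ × ℤ) → Prop
  | _, [] => True
  | known, x :: l => CommOk x ∧ x.2.1 ∈ known ∧ (x.2.2.1 ∈ known ∨ x.2.2.1 ∈ stable) ∧ Derives stable (x.1 :: known) l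

instance decDerives (stable : List ℕ) : ∀ (known : List ℕ) (l : List (ℕ × ℕ × ℕ × ℤ)),
    Decidable (Derives stable known l)
  | _, [] => inferInstanceAs (Decidable True)
  | known, x :: l =>
    haveI := decDerives stable (x.1 :: known) l
    inferInstanceAs (Decidable (_ ∧ _))

end Cfsg.Agent.E8Deg
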