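import Cfsg.Agent.E8Deg.Spec

/-!
# Fixed spaces of sets of root groups
-/

set_option autoImplicit false
set_option linter.unusedSectionVars false
set_option maxRecDepth 10000

namespace Cfsg.Agent.E8Deg

open Cfsg.Lie

variable {F : Type*} [Field F] {V : Type*} [AddCommGroup V] [Module ℂ V] (ρ : Representation ℂ (Gam F) V)

/-- The vectors fixed by a list of root groups. -/
def fixS (P : List ℕ) : Submodule ℂ V where
  carrier := {v | ∀ r ∈ P, ∀ t : F, ρ (X r t) v = v}
  add_mem' := fun {v w} hv hw r hr t => by rw [map_add, hv r hr t, hw r hr t]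
  zero_mem' := fun r _ t => map_zero _
  smul_mem' := fun c {v} hv r hr t => by rw [map_smul, hv r hr t]

theorem mem_fixS {P : List ℕ} {v : V} : v ∈ fixS ρ P ↔ ∀ r ∈ P, ∀ t : F, ρ (X r t) v = v := Iff.rfl

theorem fixS_anti {P Q : List ℕ} (h : ∀ r ∈ Q, r ∈ P) : fixS ρ P ≤ fixS ρ Q :=
  fun _ hv r hr t => hv r (h r hr) t

theorem rho_X_inj {r : ℕ} (t : F) {v w : V} (h : ρ (X r t) v = ρ (X r t) w) : v = w := rho_inj ρ _ h

theorem prod_fix {v : V} : ∀ L : List (ℕ × F), (∀ p ∈ L, ρ (X p.1 p.2) v = v) →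
    ρ (L.map fun p => X p.1 p.2).prod v = v
  | [], _ => by simp
  | p :: L, h => by
    rw [List.map_cons, List.prod_cons, map_mul, Module.End.mul_apply,
      prod_fix L fun q hq => h q (List.mem_cons_of_mem _ hq), h p (List.mem_cons_self ..)]

/-- Two root elements commute on a vector fixed by the terms of their commutator. -/
theorem comm_on {r s : ℕ} (hr : r < 240) (hs : s < 240) (h1 : s ≠ r) (h2 : s ≠ chevE8.neg r) {w : V}
    (hw : ∀ c ∈ chevE8.commTerms r s, ∀ t : F, ρ (X c.1 t) w = w) (t u : F) :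
    ρ (X r t) (ρ (X s u) w) = ρ (X s u) (ρ (X r t) w) := by
  simp only [← Module.End.mul_apply, ← map_mul]
  rw [X_comm hr hs h1 h2 t u, map_mul ρ (X r t * X s u), Module.End.mul_apply, prod_fix ρ _ fun p hp => ?_]
  obtain ⟨c, hc, rfl⟩ := List.mem_map.1 hp
  exact hw c hc _

theorem fixS_stable {P : List ℕ} {r : ℕ} (hr : r < 240) (h : NormOk P r) :
    Stable ρ (fixS ρ P) r := by
  intro t w hw s hs u
  obtain ⟨hs', rfl | ⟨h2, hc⟩⟩ := h s hs
  · rw [hw s hs t, hw s hs u]
  by_cases h1 : s = r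
  · subst h1
    rw [hw s hs t, hw s hs u]
  rw [← comm_on ρ hr hs' h1 h2 (fun c hcm t => hw c.1 (hc c hcm) t), hw s hs u]

theorem Stable.inf {W W' : Submodule ℂ V} {r : ℕ} (h : Stable ρ W r) (h' : Stable ρ W' r) :
    Stable ρ (W ⊓ W') r := fun t w hw => ⟨h t w hw.1, h' t w hw.2⟩

/-- A root group acting trivially on a subspace invariant under another. -/
theorem fix_of_stable {a b k : ℕ} {c : ℤ} (ha : a < 240) (hb : b < 240) (h1 : b ≠ a) (h2 : b ≠ chevE8.neg a)
    (h : chevE8.commTerms a b = [(k, c, 1, 1)]) (hc : c = 1 ∨ c = -1) (W : Submodule ℂ V)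
    (hWb : Stable ρ W b) (hWa : ∀ v ∈ W, ∀ t : F, ρ (X a t) v = v) :
    ∀ v ∈ W, ∀ w : F, ρ (X k w) v = v := by
  intro v hv w
  have hc' : (c : F) ≠ 0 := cast_pm hc
  have e := X_comm_one (F := F) ha hb h1 h2 h (-w / (c : F)) 1
  rw [show (c : F) * -(-w / (c : F)) * 1 = w by field_simp] at e
  have e' := congrArg (fun g => ρ g v) e
  simp only [map_mul, Module.End.mul_apply, hWa v hv] at e'
  -- both sides are the image of the moved vector
  have e2 : ρ (X b 1) v = ρ (X b 1) (ρ (X k w) v) :=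
    rho_X_inj ρ (-w / (c : F)) ((hWa _ (hWb 1 v hv) _).trans e')
  exact (rho_X_inj ρ 1 e2).symm

/-- A derivation gives root groups fixing the subspace. -/
theorem derives_fix (W : Submodule ℂ V) {st : List ℕ} (hst : ∀ b ∈ st, Stable ρ W b) :
    ∀ {known : List ℕ} {l : List (ℕ × ℕ × ℕ × ℤ)}, Derives st known l →
      (∀ r ∈ known, ∀ v ∈ W, ∀ t : F, ρ (X r t) v = v) →
      ∀ r, r ∈ known ∨ r ∈ l.map Prod.fst → ∀ v ∈ W, ∀ t : F, ρ (X r t) v = v
  | _, [], _, hk, r, hr => hk r (by simpa using hr)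
  | known, x :: l, ⟨⟨ha, hb, h1, h2, hc, hcomm⟩, hka, hkb, hd⟩, hk, r, hr => by
    refine derives_fix W hst hd (fun s hs => ?_) r ?_
    · rcases List.mem_cons.1 hs with rfl | hs
      · refine fix_of_stable ρ ha hb h1 h2 hcomm hc W ?_ (hk _ hka)
        rcases hkb with hkb | hkb
        · exact fun t w hw => by rw [hk _ hkb w hw t]; exact hw
        · exact hst _ hkb
      · exact hk s hs
    · rcases hr with hr | hr
      · exact Or.inl (List.mem_cons_of_mem _ hr)
      · rcases List.mem_cons.1 hr with rfl | hr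
        · exact Or.inl (List.mem_cons_self ..)
        · exact Or.inr hr

/-- What a derivation gives for the fixed space of its start. -/
theorem derives_anti {P T : List ℕ} {l : List (ℕ × ℕ × ℕ × ℤ)} (h : Derives [] P l)
    (hT : ∀ r ∈ T, r ∈ P ∨ r ∈ l.map Prod.fst) : fixS ρ P ≤ fixS ρ T := fun v hv r hr t =>
  derives_fix ρ (fixS ρ P) (fun b hb => absurd hb List.not_mem_nil) h
    (fun s hs w hw u => hw s hs u) r (hT r hr) v hv t

end Cfsg.Agent.E8Deg
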