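import Cfsg.Agent.E8Deg.Defs2
import Cfsg.Agent.ChevGrp.PerfectData
import Cfsg.Agent.ChevSteinberg.GrpSys
import Cfsg.Agent.Chev.Rules
import Mathlib.RepresentationTheory.Irreducible

/-!
# Root elements of E₈(q) and their action on vectors
-/

set_option autoImplicit false
set_option maxRecDepth 10000
set_option linter.unusedSectionVars false

namespace Cfsg.Agent.E8Deg

open Cfsg.Lie Cfsg.Agent.ChevGrp

variable {F : Type*} [Field F]

/-- The group. -/
abbrev Gam (F : Type*) [Field F] := ↥(chevE8.group F)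

theorem rules (F : Type*) [Field F] : Rules chevE8 F := Cfsg.Agent.Chev.rules_of_mem F (by simp)

/-- The root elements. -/
noncomputable def X (r : ℕ) (t : F) : Gam F := (ChevSteinberg.grpSys (rules F)).x r t

theorem X_add {r : ℕ} (hr : r < 240) (t u : F) : X r t * X r u = X r (t + u) :=
  (ChevSteinberg.grpSys (rules F)).x_add r hr t u

theorem X_zero {r : ℕ} (hr : r < 240) : X r (0 : F) = 1 := (ChevSteinberg.grpSys (rules F)).x_zero hr

theorem X_comm {r s : ℕ} (hr : r < 240) (hs : s < 240) (h1 : s ≠ r) (h2 : s ≠ chevE8.neg r) (t u : F) :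
    X s u * X r t = X r t * X s u * ((chevE8.commWord F r s t u).map fun p => X p.1 p.2).prod :=
  (ChevSteinberg.grpSys (rules F)).comm r hr s hs h1 h2 t u

/-- A pair of roots with one commutator term. -/
theorem X_comm_one {r s k : ℕ} {c : ℤ} (hr : r < 240) (hs : s < 240) (h1 : s ≠ r) (h2 : s ≠ chevE8.neg r)
    (h : chevE8.commTerms r s = [(k, c, 1, 1)]) (t u : F) :
    X s u * X r t = X r t * X s u * X k ((c : F) * (-t) * u) := by
  rw [X_comm hr hs h1 h2]
  simp [ChevalleyDatum.commWord, h]

theorem X_commute {r s : ℕ} (hr : r < 240) (hs : s < 240) (h1 : s ≠ r) (h2 : s ≠ chevE8.neg r)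
    (h : chevE8.commTerms r s = []) (t u : F) : Commute (X r t) (X s u) := by
  have e := X_comm hr hs h1 h2 t u
  simp only [ChevalleyDatum.commWord, h, List.map_nil, List.prod_nil, mul_one] at e
  exact e.symm

/-- The group is generated by the root elements. -/
theorem generated (P : Gam F → Prop) (h1 : P 1) (hX : ∀ r, r < 240 → ∀ t, P (X r t))
    (hmul : ∀ a b, P a → P b → P (a * b)) (g : Gam F) : P g := by
  have hg : g ∈ (ChevSteinberg.grpSys (rules F)).Gbar := ChevSteinberg.Gbar_grpSys (rules F) ▸ Subgroup.mem_top g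
  rw [Sys.Gbar] at hg
  refine Subgroup.closure_induction_left h1 (fun x hx y _ hy => ?_) (fun x hx y _ hy => ?_) hg
  · obtain ⟨r, hr, t, rfl⟩ := hx
    exact hmul _ _ (hX r hr t) hy
  · obtain ⟨r, hr, t, rfl⟩ := hx
    rw [(ChevSteinberg.grpSys (rules F)).x_inv hr t]
    exact hmul _ _ (hX r hr _) hy

/-- The simple reflections. -/
noncomputable def nS (i : Fin chevE8.rank) : Gam F := (ChevSteinberg.grpSys (rules F)).nI i

theorem nS_conj (i : Fin chevE8.rank) {s : ℕ} (hs : s < 240) : ∃ e : F, e * e = 1 ∧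
    ∀ t, nS i * X s t = X (chevE8.reflectRoot i s) (e * t) * nS i := by
  have key : ∀ t : F, ((ChevSteinberg.grpSys (rules F)).nI i : GL chevE8.Idx F) * xGL chevE8 F s t =
      xGL chevE8 F (chevE8.reflectRoot i s) (((rules F).eta i s : F) * t) *
        ((ChevSteinberg.grpSys (rules F)).nI i : GL chevE8.Idx F) := by
    intro t
    obtain ⟨len, hR⟩ := (rules F).root
    refine Units.ext ?_
    rw [Units.val_mul, Units.val_mul, val_xGL (rules F), val_xGL (rules F), ChevSteinberg.coe_nI]
    have e : (((glSys (rules F)).nI i : GL chevE8.Idx F) : Matrix chevE8.Idx chevE8.Idx F) =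
        chevE8.nMat F (chevE8.simple i) 1 := (glSys (rules F)).mat_nEl hR (hR.simple_lt i i.2) 1
    rw [e]
    exact (rules F).eta_conj i hs t
  refine ⟨((rules F).eta i s : F), ?_, fun t => Subtype.ext (key t)⟩
  rcases (rules F).eta_sq i hs with h | h <;> rw [h] <;> norm_num

/-- A torus element scaling the highest root. -/
theorem exists_tor (c : F) (hc : c ≠ 0) : ∃ h : Gam F, ∀ t, h * X 239 t = X 239 (c * t) * h := by
  obtain ⟨len, hR⟩ := (rules F).root
  set i : Fin chevE8.rank := ⟨7, by decide⟩
  refine ⟨(ChevSteinberg.grpSys (rules F)).hEl (chevE8.simple i) c, fun t => Subtype.ext (Units.ext ?_)⟩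
  have e : ((((ChevSteinberg.grpSys (rules F)).hEl (chevE8.simple i) c : Gam F) : GL chevE8.Idx F) :
      Matrix chevE8.Idx chevE8.Idx F) = chevE8.hMat F (chevE8.simple i) c := by
    rw [ChevSteinberg.coe_hEl]
    exact (glSys (rules F)).mat_hEl hR (hR.simple_lt i i.2) c
  have hx : ∀ u : F, (((X 239 u : Gam F) : GL chevE8.Idx F) : Matrix chevE8.Idx chevE8.Idx F) = chevE8.x F 239 u :=
    fun u => val_xGL (rules F) 239 u
  rw [Subgroup.coe_mul, Subgroup.coe_mul, Units.val_mul, Units.val_mul, e, hx, hx,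
    (rules F).hMat_conj i i.2 239 (by decide) c hc t,
    show chevE8.cartan i 239 = 1 by decide +kernel, zpow_one]

variable {V : Type*} [AddCommGroup V] [Module ℂ V] (ρ : Representation ℂ (Gam F) V)

theorem rho_inj (g : Gam F) {v w : V} (h : ρ g v = ρ g w) : v = w := by
  have := congrArg (ρ g⁻¹) h
  rwa [← Module.End.mul_apply, ← Module.End.mul_apply, ← map_mul, inv_mul_cancel, map_one] at this

theorem rho_X_neg {r : ℕ} (hr : r < 240) (t : F) (v : V) : ρ (X r t) (ρ (X r (-t)) v) = v := by
  rw [← Module.End.mul_apply, ← map_mul, X_add hr, add_neg_cancel, X_zero hr, map_one, Module.End.one_apply]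

/-- A vector which is an eigenvector of two root groups is fixed by the root group of the sum. -/
theorem fix_sum {a b k : ℕ} {c : ℤ} (ha : a < 240) (hb : b < 240) (h1 : b ≠ a) (h2 : b ≠ chevE8.neg a)
    (h : chevE8.commTerms a b = [(k, c, 1, 1)]) (hc : (c : F) ≠ 0) {v : V}
    (hva : ∀ t, ∃ e : ℂ, ρ (X a t) v = e • v) (hvb : ∀ t, ∃ e : ℂ, ρ (X b t) v = e • v) (w : F) :
    ρ (X k w) v = v := by
  have e := X_comm_one ha hb h1 h2 h (-w / (c : F)) 1
  rw [show (c : F) * -(-w / (c : F)) * 1 = w by field_simp] at e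
  obtain ⟨x, hx⟩ := hva (-w / (c : F))
  obtain ⟨y, hy⟩ := hvb 1
  have e' : ρ (X b 1 * X a (-w / (c : F))) v = ρ (X a (-w / (c : F)) * X b 1 * X k w) v := by rw [← e]
  have e2 : ρ (X b 1 * X a (-w / (c : F))) v = ρ (X a (-w / (c : F)) * X b 1) v := by
    simp only [map_mul, Module.End.mul_apply, hx, hy, map_smul, smul_smul, mul_comm x]
  rw [e2, map_mul ρ _ (X k w), Module.End.mul_apply] at e'
  have hinj : Function.Injective (ρ (X a (-w / (c : F)) * X b (1 : F))) := fun u u' h' => by
    have := congrArg (ρ (X a (-w / (c : F)) * X b (1 : F))⁻¹) h'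
    rwa [← Module.End.mul_apply, ← Module.End.mul_apply, ← map_mul, inv_mul_cancel, map_one] at this
  exact (hinj e').symm

/-- An invariant subspace of a faithful irreducible representation containing a vector fixed by the group. -/
theorem fixed_eq_zero [ρ.IsIrreducible] (hρ : ∀ g, ρ g = 1 → g = 1) {v : V}
    (hv : ∀ r, r < 240 → ∀ t, ρ (X r t) v = v) : v = 0 := by
  let W : Subrepresentation ρ := ⟨
    { carrier := {w | ∀ g, ρ g w = w}
      add_mem' := fun {a b} ha hb g => by rw [map_add, ha g, hb g]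
      zero_mem' := fun g => map_zero _
      smul_mem' := fun c {a} ha g => by rw [map_smul, ha g] }, fun g w hw => by
    show ∀ g', ρ g' (ρ g w) = ρ g w
    rw [hw g]
    exact hw⟩
  have hvW : v ∈ W.toSubmodule := fun g => generated (fun g => ρ g v = v) (by simp) hv
    (fun a b ha hb => by show ρ (a * b) v = v; rw [map_mul, Module.End.mul_apply, hb, ha]) g
  rcases eq_bot_or_eq_top W with hW | hW
  · have h2 : W.toSubmodule = ⊥ := congrArg Subrepresentation.toSubmodule hW
    rw [h2] at hvW
    simpa using hvW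
  · exfalso
    have hall : ∀ g, ρ g = 1 := fun g => LinearMap.ext fun w => by
      have hw : w ∈ W.toSubmodule := by
        rw [show W.toSubmodule = ⊤ from congrArg Subrepresentation.toSubmodule hW]; trivial
      exact hw g
    have e := hρ _ (hall (X 239 1))
    have e' : (ChevSteinberg.grpSys (rules F)).x 239 (1 : F) = (ChevSteinberg.grpSys (rules F)).x 0 0 := by
      rw [(ChevSteinberg.grpSys (rules F)).x_zero (by decide)]; exact e
    obtain ⟨len, hR⟩ := (rules F).root
    exact absurd ((ChevSteinberg.grpSys (rules F)).x_root_inj hR (by decide) (by decide) one_ne_zero e') (by decide)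

/-- A nonlinear irreducible representation is faithful. -/
theorem faithful [FiniteDimensional ℂ V] [ρ.IsIrreducible] (h2 : 2 ≤ Module.finrank ℂ V) (g : Gam F)
    (hg : ρ g = 1) : g = 1 := by
  have hs : IsSimpleGroup (Gam F) := (thm_simple (rules F) (perfectData_E8 F)).1
  let K : Subgroup (Gam F) :=
    { carrier := {g | ρ g = 1}
      one_mem' := map_one ρ
      mul_mem' := fun {a b} (ha : ρ a = 1) (hb : ρ b = 1) => (map_mul ρ a b).trans (by rw [ha, hb, one_mul])
      inv_mem' := fun {a} (ha : ρ a = 1) => by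
        show ρ a⁻¹ = 1
        have := map_mul ρ a⁻¹ a
        rw [inv_mul_cancel, map_one, ha, mul_one] at this
        exact this.symm }
  have hK : K.Normal := ⟨fun n (hn : ρ n = 1) g => by
    show ρ (g * n * g⁻¹) = 1
    rw [map_mul, map_mul, hn, mul_one, ← map_mul, mul_inv_cancel, map_one]⟩
  rcases hK.eq_bot_or_eq_top with e | e
  · exact Subgroup.mem_bot.1 (e ▸ (show g ∈ K from hg))
  · exfalso
    have hall : ∀ g, ρ g = 1 := fun g => (show g ∈ K from e ▸ Subgroup.mem_top g)
    haveI : Nontrivial V := Module.nontrivial_of_finrank_pos (R := ℂ) (by omega)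
    obtain ⟨v, hv⟩ := exists_ne (0 : V)
    let W : Subrepresentation ρ := ⟨Submodule.span ℂ {v}, fun g w hw => by rw [hall g]; exact hw⟩
    rcases eq_bot_or_eq_top W with hW | hW
    · have h2' : (Submodule.span ℂ {v} : Submodule ℂ V) = ⊥ := congrArg Subrepresentation.toSubmodule hW
      exact hv (by simpa using h2')
    · have h2' : (Submodule.span ℂ {v} : Submodule ℂ V) = ⊤ := congrArg Subrepresentation.toSubmodule hW
      have h3 : Module.finrank ℂ (Submodule.span ℂ {v}) = 1 := finrank_span_singleton hv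
      rw [h2', finrank_top] at h3
      omega

end Cfsg.Agent.E8Deg
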