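import Cfsg.Agent.E8Deg.Fix
import Cfsg.Agent.E8Deg.ChkZ

/-!
# The characters of the highest root group
-/

set_option autoImplicit false
set_option linter.unusedSectionVars false
set_option maxRecDepth 10000

namespace Cfsg.Agent.E8Deg

open Cfsg.Lie
open Module (finrank)

/-- The highest root as a block. -/
def LZ : Fin 1 → ℕ := fun _ => 239

variable {F : Type*} [Field F] [Fintype F] [DecidableEq F] {V : Type*} [AddCommGroup V] [Module ℂ V]
  [FiniteDimensional ℂ V] (ρ : Representation ℂ (Gam F) V) (ψ : AddChar F ℂ)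

theorem eig_zero {k : ℕ} (L : Fin k → ℕ) :
    eig ρ ψ L (0 : Fin k → F) = fixS ρ (List.ofFn L) := by
  ext v
  constructor
  · intro hv r hr t
    obtain ⟨j, rfl⟩ := List.mem_ofFn.1 hr
    have := hv j t
    rwa [Pi.zero_apply, zero_mul, AddChar.map_zero_eq_one, one_smul] at this
  · intro hv j u
    rw [Pi.zero_apply, zero_mul, AddChar.map_zero_eq_one, one_smul]
    exact hv _ (List.mem_ofFn.2 ⟨j, rfl⟩) u

/-- A root group commuting with the highest one keeps its eigenspaces. -/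
theorem eigZ_stable {r : ℕ} (hr : r < 240) (h1 : r ≠ 239) (h2 : r ≠ chevE8.neg 239)
    (hc : chevE8.commTerms 239 r = []) (x : Fin 1 → F) : Stable ρ (eig ρ ψ LZ x) r := by
  intro t w hw j u
  show ρ (X 239 u) (ρ (X r t) w) = _
  rw [comm_on ρ (by norm_num) hr h1 h2 (fun c hcm => absurd hcm (by rw [hc]; exact List.not_mem_nil)),
    show ρ (X 239 u) w = _ from hw j u, map_smul]

/-- The torus makes the multiplicities of the nontrivial characters equal. -/
theorem multZ_eq {a b : F} (ha : a ≠ 0) (hb : b ≠ 0) :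
    mult ρ ψ ⊤ LZ (fun _ => a) = mult ρ ψ ⊤ LZ (fun _ => b) := by
  have key : ∀ {a b : F}, a ≠ 0 → b ≠ 0 → mult ρ ψ ⊤ LZ (fun _ => a) ≤ mult ρ ψ ⊤ LZ (fun _ => b) := by
    intro a b ha hb
    obtain ⟨h, hh⟩ := exists_tor (F := F) (a / b) (div_ne_zero ha hb)
    refine mult_le_of_map ρ ψ h (fun w _ => trivial) fun v _ hv j u => ?_
    have e := congrArg (fun g => ρ g v) (hh (b / a * u))
    rw [show a / b * (b / a * u) = u by field_simp] at e
    simp only [map_mul, Module.End.mul_apply] at e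
    show ρ (X 239 u) (ρ h v) = _
    rw [← e, show ρ (X 239 (b / a * u)) v = ψ (a * (b / a * u)) • v from hv j _, map_smul,
      show a * (b / a * u) = b * u by field_simp]
  exact le_antisymm (key ha hb) (key hb ha)

/-- The partners translate the characters of the upper half. -/
theorem half_shift {a : F} (ha : a ≠ 0) (x : Fin 28 → F) (s : Fin 28) (y : F) :
    mult ρ ψ (eig ρ ψ LZ fun _ => a) hA x ≤ mult ρ ψ (eig ρ ψ LZ fun _ => a) hA (Function.update x s y) := by
  obtain ⟨c, hc, hcomm⟩ := hP_pair s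
  have hc0 : (c : F) ≠ 0 := cast_pm (by simpa using hc)
  obtain ⟨-, hp, -, -, -, hp1, hp2, hp3⟩ := hA_ok s
  set t : F := (x s - y) / (a * (c : F)) with ht
  refine mult_le_of_map ρ ψ (X (hP s) t) (eigZ_stable ρ ψ hp hp1 hp2 hp3 _ t) fun v hvW hv j u => ?_
  obtain ⟨h1, h2, h3⟩ := hP_comm s j
  have hj := (hA_ok j).1
  rcases eq_or_ne j s with rfl | hjs
  · rw [← Module.End.mul_apply, ← map_mul, X_comm_one hp hj h1 h2 hcomm, map_mul, map_mul, Module.End.mul_apply,
      Module.End.mul_apply, show ρ (X 239 ((c : F) * -t * u)) v = ψ (a * ((c : F) * -t * u)) • v from hvW 0 _,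
      map_smul, map_smul, hv j, map_smul, smul_smul, ← AddChar.map_add_eq_mul, Function.update_self]
    congr 2
    rw [ht]
    field_simp
    ring
  · rw [← comm_on ρ hp hj h1 h2 (fun d hd => absurd hd (by rw [h3 hjs]; exact List.not_mem_nil)), hv j u, map_smul,
      Function.update_of_ne hjs]

theorem half_eq {a : F} (ha : a ≠ 0) (x y : Fin 28 → F) :
    mult ρ ψ (eig ρ ψ LZ fun _ => a) hA x ≤ mult ρ ψ (eig ρ ψ LZ fun _ => a) hA y := by
  have : ∀ S : Finset (Fin 28),
      mult ρ ψ (eig ρ ψ LZ fun _ => a) hA x ≤ mult ρ ψ (eig ρ ψ LZ fun _ => a) hA (S.piecewise y x) := by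
    intro S
    induction S using Finset.induction with
    | empty => rw [Finset.piecewise_empty]
    | @insert s S _ ih =>
      rw [Finset.piecewise_insert]
      exact ih.trans (half_shift ρ ψ ha _ s _)
  simpa using this Finset.univ

/-- A nonzero eigenspace of the highest root group is large, and meets the fixed space of the next root. -/
theorem eigZ_big (hψ : ψ ≠ 1) {a : F} (ha : a ≠ 0) (hne : 0 < mult ρ ψ ⊤ LZ (fun _ => a)) :
    Fintype.card F ^ 28 ≤ mult ρ ψ ⊤ LZ (fun _ => a) ∧ ∃ v : V, v ≠ 0 ∧ ∀ t : F, ρ (X 238 t) v = v := by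
  rw [mult, top_inf_eq] at hne ⊢
  set W := eig ρ ψ LZ fun _ => a with hW
  have hst : ∀ j, Stable ρ W (hA j) := fun j => by
    obtain ⟨h, -, h1, h2, h3, -⟩ := hA_ok j
    exact eigZ_stable ρ ψ h h1 h2 h3 _
  have hsum := sum_mult ρ ψ hψ (fun j => (hA_ok j).1) hst (fun i j hij u v w _ => by
    obtain ⟨h1, h2, h3⟩ := hA_comm i j hij
    exact comm_on ρ (hA_ok i).1 (hA_ok j).1 h1 h2 (fun d hd => absurd hd (by rw [h3]; exact List.not_mem_nil)) u v)
  have heq : ∀ x, mult ρ ψ W hA x = mult ρ ψ W hA 0 := fun x =>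
    le_antisymm (half_eq ρ ψ ha x 0) (half_eq ρ ψ ha 0 x)
  rw [Finset.sum_congr rfl (fun x _ => heq x), Finset.sum_const, Finset.card_univ, Fintype.card_fun,
    Fintype.card_fin, smul_eq_mul] at hsum
  have h0 : 0 < mult ρ ψ W hA 0 := by
    refine Nat.pos_of_ne_zero fun h => ?_
    rw [h, mul_zero] at hsum
    omega
  refine ⟨?_, ?_⟩
  · rw [← hsum]; exact Nat.le_mul_of_pos_right _ h0
  · have : (W ⊓ eig ρ ψ hA (0 : Fin 28 → F)) ≠ ⊥ := fun h => by
      rw [mult, h, finrank_bot] at h0; exact absurd h0 (lt_irrefl 0)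
    obtain ⟨v, hv, hv0⟩ := (Submodule.ne_bot_iff _).1 this
    refine ⟨v, hv0, fun t => ?_⟩
    have := hv.2 27 t
    rwa [hA_last, Pi.zero_apply, zero_mul, AddChar.map_zero_eq_one, one_smul] at this

theorem sum_LZ (hψ : ψ ≠ 1) :
    finrank ℂ V = finrank ℂ (fixS ρ [239]) + (Fintype.card F - 1) * mult ρ ψ ⊤ LZ (fun _ => (1 : F)) := by
  have h := sum_mult ρ ψ hψ (L := LZ) (W := (⊤ : Submodule ℂ V)) (fun _ => by norm_num [LZ]) (fun j t w _ => trivial)
    (fun i j hij => absurd (Subsingleton.elim i j) hij)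
  rw [← Finset.add_sum_erase _ _ (Finset.mem_univ (0 : Fin 1 → F)), finrank_top] at h
  rw [← h, mult, top_inf_eq, eig_zero, show List.ofFn LZ = [239] from rfl,
    Finset.sum_eq_card_nsmul (b := mult ρ ψ ⊤ LZ fun _ => (1 : F)) fun x hx => ?_, smul_eq_mul]
  · congr 2
    rw [Finset.card_erase_of_mem (Finset.mem_univ _), Finset.card_univ, Fintype.card_fun, Fintype.card_fin,
      pow_one]
  · have hx0 : x 0 ≠ 0 := fun e => Finset.ne_of_mem_erase hx (funext fun j => by
      rw [Subsingleton.elim j 0]; exact e)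
    rw [show x = fun _ => x 0 from funext fun j => congrArg x (Subsingleton.elim j 0)]
    exact multZ_eq ρ ψ hx0 one_ne_zero

end Cfsg.Agent.E8Deg
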