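import Cfsg.Agent.E8Deg.Block
import Cfsg.Agent.E8Deg.ZLevel

/-!
# Counting on one level
-/

set_option autoImplicit false
set_option linter.unusedSectionVars false
set_option maxRecDepth 10000

namespace Cfsg.Agent.E8Deg

open Cfsg.Lie
open Module (finrank)

variable {F : Type*} [Field F] {V : Type*} [AddCommGroup V] [Module ℂ V] (ρ : Representation ℂ (Gam F) V)

/-- The image under a simple reflection of a fixed vector. -/
theorem twist {m : Fin chevE8.rank} {S P : List ℕ}
    (h : ∀ r ∈ P, r < 240 ∧ chevE8.reflectRoot m r < 240 ∧ chevE8.reflectRoot m r ∈ S ∧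
      chevE8.reflectRoot m (chevE8.reflectRoot m r) = r) {v : V} (hv : v ∈ fixS ρ S) :
    ρ (nS m) v ∈ fixS ρ P := by
  intro r hr t
  obtain ⟨-, h2, h3, h4⟩ := h r hr
  obtain ⟨e, he, hn⟩ := nS_conj (F := F) m h2
  have h1 := hn (e * t)
  rw [h4, ← mul_assoc, he, one_mul] at h1
  rw [← Module.End.mul_apply, ← map_mul, ← h1, map_mul, Module.End.mul_apply, hv _ h3]

/-- A root group fixing the image under a simple reflection. -/
theorem untwist {m : Fin chevE8.rank} {b a : ℕ} (hb : b < 240) (h : chevE8.reflectRoot m b = a) {v : V}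
    (hv : ∀ t : F, ρ (X a t) (ρ (nS m) v) = ρ (nS m) v) (t : F) : ρ (X b t) v = v := by
  obtain ⟨e, -, hn⟩ := nS_conj (F := F) m hb
  refine rho_inj ρ (nS m) ?_
  rw [← Module.End.mul_apply, ← map_mul, hn, h, map_mul, Module.End.mul_apply, hv]

/-- Root groups fixing a subspace keep it. -/
theorem stable_of_fix {W : Submodule ℂ V} {r : ℕ} (h : ∀ v ∈ W, ∀ t : F, ρ (X r t) v = v) : Stable ρ W r :=
  fun t w hw => by rw [h w hw t]; exact hw

/-- The movers of a block keep the vectors fixed by the block. -/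
theorem stable_inf_block [FiniteDimensional ℂ V] {k : ℕ} {L : Fin k → ℕ} {tg : ℕ → Fin k → Option (Fin k × ℤ)} {M : List ℕ}
    (ψ : AddChar F ℂ) (hok : BlockOk L tg M) {W : Submodule ℂ V} {r : ℕ} (hr : r ∈ M) (hW : Stable ρ W r) :
    Stable ρ (W ⊓ fixS ρ (List.ofFn L)) r := by
  intro t w hw
  refine ⟨hW t w hw.1, fun a ha u => ?_⟩
  obtain ⟨j, rfl⟩ := List.mem_ofFn.1 ha
  have h0 : w ∈ eig ρ ψ L (0 : Fin k → F) := fun j u => by
    rw [Pi.zero_apply, zero_mul, AddChar.map_zero_eq_one, one_smul]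
    exact hw.2 _ (List.mem_ofFn.2 ⟨j, rfl⟩) u
  have h1 := mem_eig_mv ρ ψ hok hr t h0 j u
  rw [show mv tg r t (0 : Fin k → F) j = 0 by rcases h : tg r j with _ | ⟨i, c⟩ <;> simp [mv, h],
    zero_mul, AddChar.map_zero_eq_one, one_smul] at h1
  exact h1

/-- Stability of a root group of a sum. -/
theorem stable_sum {a b k : ℕ} {c : ℤ} (ha : a < 240) (hb : b < 240) (h1 : b ≠ a) (h2 : b ≠ chevE8.neg a)
    (h : chevE8.commTerms a b = [(k, c, 1, 1)]) (hc : (c : F) ≠ 0) {W : Submodule ℂ V}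
    (hWa : Stable ρ W a) (hWb : Stable ρ W b) : Stable ρ W k := by
  intro w v hv
  have e := X_comm_one (F := F) ha hb h1 h2 h (-w / (c : F)) 1
  rw [show (c : F) * -(-w / (c : F)) * 1 = w by field_simp] at e
  have e' : X k w = X b (-1) * X a (w / (c : F)) * (X b 1 * X a (-w / (c : F))) := by
    rw [e, mul_assoc (X b (-1)), ← mul_assoc (X a (w / (c : F))), ← mul_assoc (X a (w / (c : F))),
      X_add ha, show w / (c : F) + -w / (c : F) = 0 by ring, X_zero ha, one_mul, ← mul_assoc, X_add hb,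
      neg_add_cancel, X_zero hb, one_mul]
  rw [e', map_mul, map_mul, map_mul, Module.End.mul_apply, Module.End.mul_apply, Module.End.mul_apply]
  exact hWb _ _ (hWa _ _ (hWb _ _ (hWa _ _ hv)))

variable [Fintype F] [DecidableEq F] [FiniteDimensional ℂ V] (ψ : AddChar F ℂ) (hψ : ψ ≠ 1)
  {k : ℕ} {L : Fin k → ℕ} (hb : ∀ j, L j < 240) {P : List ℕ}
  (hc : ∀ a b : Fin k, a < b → L b ≠ L a ∧ L b ≠ chevE8.neg (L a) ∧
    ∀ c ∈ chevE8.commTerms (L a) (L b), c.1 ∈ P)
  {U : Submodule ℂ V} (hU : U ≤ fixS ρ P) (hst : ∀ j, Stable ρ U (L j))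

include hψ hb hc hU hst

/-- The decomposition of a subspace under a block. -/
theorem block_sum :
    finrank ℂ U = finrank ℂ ↥(U ⊓ fixS ρ (List.ofFn L)) +
      ∑ x ∈ (Finset.univ : Finset (Fin k → F)).erase 0, mult ρ ψ U L x := by
  have h := sum_mult ρ ψ hψ hb hst (fun i j hij u v w hw => by
    rcases lt_or_gt_of_ne hij with h | h
    · obtain ⟨h1, h2, h3⟩ := hc i j h
      exact comm_on ρ (hb i) (hb j) h1 h2 (fun c hcm t => hU hw c.1 (h3 c hcm) t) u v
    · obtain ⟨h1, h2, h3⟩ := hc j i h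
      exact (comm_on ρ (hb j) (hb i) h1 h2 (fun c hcm t => hU hw c.1 (h3 c hcm) t) v u).symm)
  rw [← Finset.add_sum_erase _ _ (Finset.mem_univ (0 : Fin k → F))] at h
  rw [← h, mult, eig_zero]

/-- A block with no nontrivial character acts trivially. -/
theorem block_trivial (h0 : ∀ x : Fin k → F, x ≠ 0 → mult ρ ψ U L x = 0) :
    U ≤ fixS ρ (List.ofFn L) := by
  have h := block_sum ρ ψ hψ hb hc hU hst
  rw [Finset.sum_eq_zero fun x hx => h0 x (Finset.ne_of_mem_erase hx), add_zero] at h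
  exact (Submodule.eq_of_le_of_finrank_eq inf_le_left h.symm) ▸ inf_le_right

/-- A subspace seeing only few characters, each at most once. -/
theorem row_bound (hψ1 : ψ 1 ≠ 1) {W : Submodule ℂ V} (hUW : U ≤ W) {row : List (Fin k)}
    (hfix : ∀ j, j ∉ row → ∀ v ∈ U, ∀ t : F, ρ (X (L j) t) v = v)
    (hone : ∀ x : Fin k → F, x ≠ 0 → (∀ j, j ∉ row → x j = 0) → mult ρ ψ W L x ≤ 1) :
    finrank ℂ U + 1 ≤ finrank ℂ ↥(U ⊓ fixS ρ (List.ofFn L)) + Fintype.card F ^ row.length := by
  classical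
  rw [block_sum ρ ψ hψ hb hc hU hst, add_assoc]
  refine Nat.add_le_add_left ?_ _
  set T : Finset (Fin k → F) := (Finset.univ.filter fun x => ∀ j, j ∉ row → x j = 0).erase 0 with hT
  have h1 : ∑ x ∈ (Finset.univ : Finset (Fin k → F)).erase 0, mult ρ ψ U L x ≤ T.card := by
    rw [Finset.card_eq_sum_ones, ← Finset.sum_subset (s₁ := T)
      (Finset.erase_subset_erase _ (Finset.subset_univ _)) (f := mult ρ ψ U L)]
    · refine Finset.sum_le_sum fun x hx => ?_
      obtain ⟨hx0, hx⟩ := Finset.mem_erase.1 hx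
      exact le_trans (Submodule.finrank_mono (inf_le_inf_right _ hUW)) (hone x hx0 (Finset.mem_filter.1 hx).2)
    · intro x hx hxT
      rw [mult, Submodule.finrank_eq_zero, eq_bot_iff]
      rintro v ⟨hvU, hve⟩
      rw [Submodule.mem_bot]
      obtain ⟨j, hj, hj0⟩ : ∃ j, j ∉ row ∧ x j ≠ 0 := by
        by_contra! hall
        exact hxT (Finset.mem_erase.2 ⟨Finset.ne_of_mem_erase hx, Finset.mem_filter.2 ⟨Finset.mem_univ _, hall⟩⟩)
      have h1 := hve j ((x j)⁻¹)
      rw [mul_inv_cancel₀ hj0, hfix j hj v hvU] at h1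
      by_contra hv
      exact hψ1 (smul_left_injective ℂ hv (show ψ 1 • v = (1 : ℂ) • v by rw [← h1, one_smul]))
  have h2 : T.card + 1 ≤ Fintype.card F ^ row.length := by
    rw [hT, Finset.card_erase_add_one (by simp)]
    calc (Finset.univ.filter fun x : Fin k → F => ∀ j, j ∉ row → x j = 0).card
        ≤ (Finset.univ : Finset (↥row.toFinset → F)).card :=
          Finset.card_le_card_of_injOn (fun x i => x i.1) (fun _ _ => Finset.mem_coe.2 (Finset.mem_univ _)) (by
            intro x hx y hy e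
            simp only [Finset.coe_filter, Set.mem_setOf_eq] at hx hy
            funext j
            by_cases hj : j ∈ row
            · exact congrFun e ⟨j, List.mem_toFinset.2 hj⟩
            · rw [hx.2 j hj, hy.2 j hj])
      _ ≤ _ := by
          rw [Finset.card_univ, Fintype.card_fun, Fintype.card_coe]
          exact Nat.pow_le_pow_right Fintype.card_pos row.toFinset_card_le
  omega

omit hψ hb hc hU hst in
/-- Comparing two fixed spaces through an injective map. -/
theorem step_bound {c : ℕ} (g : Gam F) {T T' Y Y0 : Submodule ℂ V} (hTY : ∀ v ∈ T, ρ g v ∈ Y) (hY0 : Y0 ≤ Y)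
    (h0 : ∀ v ∈ T, ρ g v ∈ Y0 → v ∈ T') (hY : finrank ℂ Y ≤ finrank ℂ Y0 + c) :
    finrank ℂ T ≤ finrank ℂ T' + c := by
  have hinj : Function.Injective (ρ g) := fun _ _ h => rho_inj ρ g h
  have e1 : finrank ℂ (T.map (ρ g)) = finrank ℂ T :=
    (Submodule.equivMapOfInjective _ hinj T).finrank_eq.symm
  have e2 : finrank ℂ ↥(T.map (ρ g) ⊓ Y0) ≤ finrank ℂ T' := by
    refine le_trans (Submodule.finrank_mono (t := T'.map (ρ g)) ?_)
      (Submodule.equivMapOfInjective _ hinj T').finrank_eq.symm.le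
    rintro _ ⟨⟨v, hv, rfl⟩, hw⟩
    exact ⟨v, h0 v hv hw, rfl⟩
  have e3 := Submodule.finrank_mono (sup_le (show T.map (ρ g) ≤ Y by rintro _ ⟨v, hv, rfl⟩; exact hTY v hv) hY0)
  have e4 := Submodule.finrank_sup_add_finrank_inf_eq (T.map (ρ g)) Y0
  omega

end Cfsg.Agent.E8Deg
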