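import Cfsg.Agent.E8Deg.Blocks
import Cfsg.Agent.E8Deg.Chk2
import Cfsg.Agent.E8Deg.Levels
import Cfsg.Agent.E8Deg.Arith
import Cfsg.Agent.E8Deg.Budget
import Cfsg.Agent.Char.Integrality
import Cfsg.Agent.S1065

/-!
# The least degree of a nonlinear irreducible representation of E₈(q)

The centre of the Heisenberg radical of the parabolic subgroup of type E₇ gives `(q - 1) q²⁸`; its fixed space
is decomposed successively by the blocks of 56, 27, 16 and 10 roots, each of which gives the orbit of the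
characters supported at one root; what is left is bounded below through the Levi subgroup of type A₇.
-/

set_option autoImplicit false
set_option linter.unusedSectionVars false
set_option maxRecDepth 10000

namespace Cfsg.Agent.E8Deg

open Cfsg.Lie
open Module (finrank)

/-- The last simple root. -/
abbrev iS7 : Fin chevE8.rank := ⟨7, by decide⟩

/-- The last but one simple root. -/
abbrev iS6 : Fin chevE8.rank := ⟨6, by decide⟩

/-- The first simple root. -/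
abbrev iS0 : Fin chevE8.rank := ⟨0, by decide⟩

variable {F : Type*} [Field F] [Fintype F] [DecidableEq F] {V : Type*} [AddCommGroup V] [Module ℂ V]
  [FiniteDimensional ℂ V] (ρ : Representation ℂ (Gam F) V) (ψ : AddChar F ℂ)

theorem sup_U : (∀ r ∈ PU0, r ∈ PU1) ∧ (∀ r ∈ List.ofFn L1, r ∈ PU1) ∧ (∀ r ∈ PU1, r ∈ PU2) ∧
    ∀ r ∈ List.ofFn L2, r ∈ PU2 := by decide +kernel

theorem norm_stable {P l : List ℕ} (h : ∀ r ∈ l, r < 240 ∧ NormOk P r) {r : ℕ} (hr : r ∈ l) :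
    Stable ρ (fixS ρ P) r :=
  fixS_stable ρ (h r hr).1 (h r hr).2

theorem stW0 (r : ℕ) (h : r ∈ M0) : Stable ρ (fixS ρ [239]) r :=
  norm_stable ρ norm_Z (List.mem_append_left _ (List.mem_append_left _ h))

theorem stL0 (j : Fin 56) : Stable ρ (fixS ρ [239]) (L0 j) :=
  norm_stable ρ norm_Z (List.mem_append_left _ (List.mem_append_right _ (List.mem_ofFn.2 ⟨j, rfl⟩)))

theorem fix_PU {P P' : List ℕ} {k : ℕ} {L : Fin k → ℕ} (h1 : ∀ r ∈ P', r ∈ P ++ List.ofFn L)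
    (h2 : ∀ r ∈ P, r ∈ P') (h3 : ∀ r ∈ List.ofFn L, r ∈ P') :
    fixS ρ P' = fixS ρ P ⊓ fixS ρ (List.ofFn L) :=
  le_antisymm (le_inf (fixS_anti ρ h2) (fixS_anti ρ h3)) fun v hv r hr t => by
    rcases List.mem_append.1 (h1 r hr) with h | h
    · exact hv.1 r h t
    · exact hv.2 r h t

theorem fix_PU0 : fixS ρ PU0 = fixS ρ [239] ⊓ fixS ρ (List.ofFn L0) :=
  fix_PU ρ sub_U.1 (fun r hr => sub_U.2.2.2.2.1 r (by obtain rfl := List.mem_singleton.1 hr; exact List.mem_cons_self ..))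
    fun r hr => sub_U.2.2.2.2.1 r (List.mem_cons_of_mem _ hr)

theorem stU0 (ψ : AddChar F ℂ) (r : ℕ) (h : r ∈ M1 ++ List.ofFn L1 ++ bs LV1 spread1) :
    Stable ρ (fixS ρ PU0) r := by
  rcases (norm_U0 r h).2 with hm | hm
  · rw [fix_PU0]; exact stable_inf_block ρ ψ blockOk0 hm (stW0 ρ r hm)
  · exact fixS_stable ρ (norm_U0 r h).1 hm

theorem stU1 (ψ : AddChar F ℂ) (r : ℕ) (h : r ∈ M2 ++ List.ofFn L2 ++ bs LV2 spread2) :
    Stable ρ (fixS ρ PU1) r := by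
  rcases (norm_U1 r h).2 with hm | hm
  · rw [fix_PU ρ sub_U.2.1 sup_U.1 sup_U.2.1]
    exact stable_inf_block ρ ψ blockOk1 hm.1 (stU0 ρ ψ r hm.2)
  · exact fixS_stable ρ (norm_U1 r h).1 hm

theorem stU2 (ψ : AddChar F ℂ) (r : ℕ) (h : r ∈ M3 ++ List.ofFn L3 ++ bs LV3 spread3) :
    Stable ρ (fixS ρ PU2) r := by
  rcases (norm_U2 r h).2 with hm | hm
  · rw [fix_PU ρ sub_U.2.2.1 sup_U.2.2.1 sup_U.2.2.2]
    exact stable_inf_block ρ ψ blockOk2 hm.1 (stU1 ρ ψ r hm.2)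
  · exact fixS_stable ρ (norm_U2 r h).1 hm

theorem stL1 (ψ : AddChar F ℂ) (j : Fin 27) : Stable ρ (fixS ρ PU0) (L1 j) :=
  stU0 ρ ψ _ (List.mem_append_left _ (List.mem_append_right _ (List.mem_ofFn.2 ⟨j, rfl⟩)))

theorem stL2 (ψ : AddChar F ℂ) (j : Fin 16) : Stable ρ (fixS ρ PU1) (L2 j) :=
  stU1 ρ ψ _ (List.mem_append_left _ (List.mem_append_right _ (List.mem_ofFn.2 ⟨j, rfl⟩)))

theorem stL3 (ψ : AddChar F ℂ) (j : Fin 10) : Stable ρ (fixS ρ PU2) (L3 j) :=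
  stU2 ρ ψ _ (List.mem_append_left _ (List.mem_append_right _ (List.mem_ofFn.2 ⟨j, rfl⟩)))

/-- The Levi factor of type A₇ keeps the fixed space of its radical. -/
theorem stSL : ∀ (n : ℕ) (i j : Fin 8), i ≠ j → i.val ≤ j.val + n → j.val ≤ i.val + n →
    Stable ρ (fixS ρ PA) (rA i j)
  | 0, i, j, hij, h1, h2 => absurd (Fin.ext (by omega)) hij
  | n + 1, i, j, hij, h1, h2 => by
    by_cases h : i.val + 1 = j.val ∨ j.val + 1 = i.val
    · exact fixS_stable ρ (rA_lt i j) (norm_SL i j h)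
    have hne : i.val ≠ j.val := fun e => hij (Fin.ext e)
    obtain ⟨m, hm⟩ : ∃ m : Fin 8, (i.val < m.val ∧ m.val + 1 = j.val) ∨ (j.val < m.val ∧ m.val + 1 = i.val) := by
      rcases Nat.lt_or_gt_of_ne hne with hlt | hlt
      · exact ⟨⟨j.val - 1, by omega⟩, Or.inl ⟨by simp; omega, by simp; omega⟩⟩
      · exact ⟨⟨i.val - 1, by omega⟩, Or.inr ⟨by simp; omega, by simp; omega⟩⟩
    have him : i ≠ m := fun e => by have := congrArg Fin.val e; omega
    have hmj : m ≠ j := fun e => by have := congrArg Fin.val e; omega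
    obtain ⟨n1, n2, hc⟩ := rA_comm1 i m j him hmj hij
    refine stable_sum ρ (rA_lt m j) (rA_lt i m) n1 n2 hc ?_ (stSL n m j hmj (by omega) (by omega))
      (stSL n i m him (by omega) (by omega))
    have h1 : (sA i m : F) ≠ 0 := left_ne_zero_of_mul_eq_one (b := (sA i m : F)) (by rw [← Int.cast_mul, sA_sq, Int.cast_one])
    have h2 : (sA m j : F) ≠ 0 := left_ne_zero_of_mul_eq_one (b := (sA m j : F)) (by rw [← Int.cast_mul, sA_sq, Int.cast_one])
    have h3 : (sA i j : F) ≠ 0 := left_ne_zero_of_mul_eq_one (b := (sA i j : F)) (by rw [← Int.cast_mul, sA_sq, Int.cast_one])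
    push_cast
    exact neg_ne_zero.2 (mul_ne_zero (mul_ne_zero h1 h2) h3)

/-- If a block fixes the space fixed so far then the Levi factor fixes it too. -/
theorem level_spread {P LV T : List ℕ} {k : ℕ} {L : Fin k → ℕ} {l : List (ℕ × ℕ × ℕ × ℤ)} {M : List ℕ}
    (hn : ∀ r ∈ M ++ List.ofFn L ++ bs LV l, Stable ρ (fixS ρ P) r)
    (hd : Derives (bs LV l) (P ++ List.ofFn L) l ∧ ∀ r ∈ T, r ∈ P ++ List.ofFn L ∨ r ∈ l.map Prod.fst)
    (h0 : fixS ρ P ≤ fixS ρ (List.ofFn L)) : fixS ρ P ≤ fixS ρ T := fun v hv r hr t =>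
  derives_fix ρ (fixS ρ P) (fun b hb => hn b (List.mem_append_right _ hb)) hd.1
    (fun s hs w hw u => by
      rcases List.mem_append.1 hs with h | h
      · exact hw s h u
      · exact h0 hw s h u) r (hd.2 r hr) v hv t

/-- The centre of the radical of type E₇ and the radical cannot have the same fixed space. -/
theorem centre_ne [ρ.IsIrreducible] (hfaith : ∀ g, ρ g = 1 → g = 1) (hψ : ψ ≠ 1)
    (hκ : 0 < mult ρ ψ ⊤ LZ (fun _ => (1 : F))) :
    ¬ fixS ρ [239] ≤ fixS ρ (List.ofFn L0) := by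
  intro hle
  set W := fixS ρ [239] with hW
  obtain ⟨hr1, hr2, hr3⟩ := refl8
  have h238 : (238 : ℕ) ∈ List.ofFn L0 := List.mem_ofFn.2 ⟨Fin.last _, by decide +kernel⟩
  have h120 : (120 : ℕ) ∈ List.ofFn L0 := List.mem_ofFn.2 ⟨0, sub_Y.1.1⟩
  set U := fixS ρ [238] with hU
  have hn : ∀ v ∈ U, ρ (nS iS7) v ∈ W := by
    intro v hv r hr t
    obtain rfl := List.mem_singleton.1 hr
    obtain ⟨e, he, h⟩ := nS_conj (F := F) iS7 (show 238 < 240 by norm_num)
    have h1 := h (e * t)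
    rw [show chevE8.reflectRoot iS7 238 = 239 from hr1, ← mul_assoc, he, one_mul] at h1
    rw [← Module.End.mul_apply, ← map_mul, ← h1, map_mul, Module.End.mul_apply, hv 238 (List.mem_singleton.2 rfl)]
  have hWU : W ≤ U := fun v hv r hr t => by
    obtain rfl := List.mem_singleton.1 hr
    exact hle hv 238 h238 t
  have hinj : Function.Injective (ρ (nS (F := F) iS7)) := fun _ _ h => rho_inj ρ _ h
  have hmap : U.map (ρ (nS iS7)) = W := by
    refine Submodule.eq_of_le_of_finrank_le (by rintro _ ⟨v, hv, rfl⟩; exact hn v hv) ?_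
    rw [← (Submodule.equivMapOfInjective _ hinj U).finrank_eq]
    exact Submodule.finrank_mono hWU
  have hUW : U = W := by
    refine (Submodule.eq_of_le_of_finrank_le hWU ?_).symm
    rw [(Submodule.equivMapOfInjective _ hinj U).finrank_eq, hmap]
  have h119 : ∀ v ∈ W, ∀ t : F, ρ (X 119 t) v = v := by
    intro v hv t
    obtain ⟨w, hw, rfl⟩ : v ∈ U.map (ρ (nS iS7)) := hmap.symm ▸ hv
    obtain ⟨e, he, h⟩ := nS_conj (F := F) iS7 (show 120 < 240 by norm_num)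
    have h1 := h (e * t)
    rw [show chevE8.reflectRoot iS7 120 = 119 from hr2, ← mul_assoc, he, one_mul] at h1
    rw [← Module.End.mul_apply, ← map_mul, ← h1, map_mul, Module.End.mul_apply, hle (hUW ▸ hw) 120 h120]
  have hzero : ∀ v ∈ W, v = 0 := fun v hv => fixed_eq_zero ρ hfaith fun r hr t =>
    derives_fix ρ W (fun b hb => norm_stable ρ norm_Z (List.mem_append_right _ hb)) der_Z.1
      (fun s hs w hw u => by
        rcases List.mem_append.1 hs with h | h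
        · rcases List.mem_cons.1 h with h | h
          · exact hw s (List.mem_singleton.2 h) u
          · exact hle hw s h u
        · obtain rfl := List.mem_singleton.1 h
          exact h119 w hw u) r (der_Z.2 r (List.mem_range.2 hr)) v hv t
  obtain ⟨-, u, hu0, hu⟩ := eigZ_big ρ ψ hψ one_ne_zero hκ
  refine hu0 (hinj ?_)
  rw [map_zero]
  exact hzero _ (hn u fun r hr t => by obtain rfl := List.mem_singleton.1 hr; exact hu t)

/-- A vector with the character of the lowest root is fixed by the radical of type A₇. -/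
theorem v1_fixed {v : V} (hv0 : v ∈ fixS ρ [239]) (hv : v ∈ eig ρ ψ L0 (Pi.single (0 : Fin 56) (1 : F)))
    (hone : finrank ℂ ↥(fixS ρ [239] ⊓ eig ρ ψ L0 (Pi.single (0 : Fin 56) (1 : F))) = 1) (hne : v ≠ 0) :
    v ∈ fixS ρ PA := by
  set x0 : Fin 56 → F := Pi.single 0 1 with hx0
  have hscal : ∀ a ∈ M0, (∀ j : Fin 56, (tg0 a j).map Prod.fst ≠ some 0) →
      ∀ t : F, ∃ e : ℂ, ρ (X a t) v = e • v := by
    intro a ha hfix t
    have hm : mv tg0 a t x0 = x0 := by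
      funext j
      rcases h : tg0 a j with _ | ⟨i, c⟩
      · rw [mv_none h]
      · have : i ≠ 0 := fun e => hfix j (by simp [h, e])
        rw [mv_some h, hx0, Pi.single_eq_of_ne this, mul_zero, add_zero]
    have h1 := mem_eig_mv ρ ψ blockOk0 ha t hv
    rw [hm] at h1
    obtain ⟨⟨w, hw⟩, hwne, hspan⟩ := finrank_eq_one_iff'.1 hone
    obtain ⟨e, he⟩ := hspan ⟨v, hv0, hv⟩
    obtain ⟨e', he'⟩ := hspan ⟨ρ (X a t) v, stW0 ρ a ha t v hv0, h1⟩
    have he0 : e ≠ 0 := fun h => hne (by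
      have := congrArg Subtype.val he
      simpa [h] using this.symm)
    refine ⟨e' * e⁻¹, ?_⟩
    have e1 : e • w = v := congrArg Subtype.val he
    have e2 : e' • w = ρ (X a t) v := congrArg Subtype.val he'
    rw [← e2, ← e1, smul_smul, inv_mul_cancel_right₀ he0]
  intro r hr t
  rcases sub_PA r hr with rfl | ⟨j, hj, rfl⟩ | hs
  · exact hv0 239 (List.mem_singleton.2 rfl) t
  · rw [hv j t, hx0, Pi.single_eq_of_ne hj, zero_mul, AddChar.map_zero_eq_one, one_smul]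
  · obtain ⟨⟨k, a, b, c⟩, hx, rfl⟩ := List.mem_map.1 hs
    obtain ⟨⟨ha, hb, h1, h2, hc, hcomm⟩, haM, hbM, hfa, hfb⟩ := stab_ok _ hx
    exact fix_sum ρ ha hb h1 h2 hcomm (cast_pm hc) (hscal a haM hfa) (hscal b hbM hfb) t

/-- One more simple root: the space fixed by the positive roots and a Levi factor grows by at most `q - 1`. -/
theorem levi_step (hψ : ψ ≠ 1) (hψ1 : ψ 1 ≠ 1) {k : ℕ} [NeZero k] {L : Fin k → ℕ} {P S S' PY : List ℕ}
    {g : List (ℕ × ℕ × ℕ × ℤ)} {m : Fin chevE8.rank} {b a : ℕ}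
    (hb : ∀ j, L j < 240)
    (hc : ∀ x y : Fin k, x < y → L y ≠ L x ∧ L y ≠ chevE8.neg (L x) ∧
      ∀ c ∈ chevE8.commTerms (L x) (L y), c.1 ∈ P)
    (hn : NormOk PY a) (hP : ∀ r ∈ P, r ∈ PY) (hL : ∀ j : Fin k, j ≠ 0 → L j ∈ PY)
    (ha : L 0 = a) (hab : b < 240) (hrefl : chevE8.reflectRoot m b = a ∧ ∀ r ∈ PY, r < 240 ∧
      chevE8.reflectRoot m r < 240 ∧ chevE8.reflectRoot m r ∈ S ∧
      chevE8.reflectRoot m (chevE8.reflectRoot m r) = r)
    (hg : Derives [] (S ++ [b]) g ∧ ∀ r ∈ S', r ∈ S ++ [b] ∨ r ∈ g.map Prod.fst)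
    (hone : ∀ x : Fin k → F, x ≠ 0 → (∀ j, j ∉ [(0 : Fin k)] → x j = 0) → mult ρ ψ (fixS ρ P) L x ≤ 1) :
    finrank ℂ (fixS ρ S) ≤ finrank ℂ (fixS ρ S') + (Fintype.card F - 1) := by
  have hY := row_bound ρ ψ hψ hb hc (U := fixS ρ PY) (fixS_anti ρ hP)
    (fun j => by
      rcases eq_or_ne j 0 with rfl | hj
      · exact fixS_stable ρ (hb 0) (ha ▸ hn)
      · exact stable_of_fix ρ fun v hv t => hv _ (hL j hj) t) hψ1 (W := fixS ρ P) (fixS_anti ρ hP)
    (row := [0]) (fun j hj v hv t => hv _ (hL j (by simpa using hj)) t) hone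
  rw [List.length_singleton, pow_one] at hY
  refine step_bound ρ (nS m) (Y := fixS ρ PY) (Y0 := fixS ρ PY ⊓ fixS ρ (List.ofFn L))
    (fun v hv => twist ρ hrefl.2 hv) inf_le_left (fun v hv hnv => ?_) (by omega)
  refine derives_anti ρ hg.1 hg.2 fun r hr t => ?_
  rcases List.mem_append.1 hr with h | h
  · exact hv r h t
  · obtain rfl := List.mem_singleton.1 h
    exact untwist ρ hab hrefl.1 (fun u => hnv.2 a (List.mem_ofFn.2 ⟨0, ha⟩) u) t

/-- Characters supported on a row occur at most once when the singles do. -/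
theorem row_one {k : ℕ} (B : Block k) {P : List ℕ} (hW : ∀ r ∈ B.M, Stable ρ (fixS ρ P) r)
    {row : List (Fin k)} {rl : Fin k → List (ℕ × Fin k)}
    (hrow : ∀ s, s ∈ row → StarOk B.tg s (rl s) ∧ (∀ j, j ∈ row → j = s ∨ j ∈ (rl s).map Prod.snd) ∧
      ∀ p ∈ rl s, p.1 ∈ B.M ∧ ∀ j, j ∉ row → ∀ i ∈ (B.tg p.1 j).toList, i.1 ∉ row)
    (h1 : mult ρ ψ (fixS ρ P) B.L (Pi.single B.top (1 : F)) ≤ 1)
    (x : Fin k → F) (hx : x ≠ 0) (hsupp : ∀ j, j ∉ row → x j = 0) : mult ρ ψ (fixS ρ P) B.L x ≤ 1 :=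
  (B.mult_row ρ ψ hW hrow x hx hsupp).le.trans h1

/-- A character at the lowest coordinate occurs at most once when the singles do. -/
theorem zero_one {k : ℕ} [NeZero k] (B : Block k) {P : List ℕ} (hW : ∀ r ∈ B.M, Stable ρ (fixS ρ P) r)
    (h1 : mult ρ ψ (fixS ρ P) B.L (Pi.single B.top (1 : F)) ≤ 1)
    (x : Fin k → F) (hx : x ≠ 0) (hsupp : ∀ j, j ∉ [(0 : Fin k)] → x j = 0) :
    mult ρ ψ (fixS ρ P) B.L x ≤ 1 := by
  have e : x = Pi.single 0 (x 0) := by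
    funext j
    rcases eq_or_ne j 0 with rfl | hj
    · simp
    · rw [Pi.single_eq_of_ne hj, hsupp j (by simpa using hj)]
  have h0 : x 0 ≠ 0 := fun h => hx (by rw [e, h, Pi.single_zero])
  rw [e, B.mult_single ρ ψ hW k 0 (by omega) _ h0]
  exact h1

theorem poly8 (q : ℕ) (hq : 1 ≤ q) :
    q ^ 8 - q = (q - 1) * (q ^ 7 + q ^ 6 + q ^ 5 + q ^ 4 + q ^ 3 + q ^ 2 + q) := by
  obtain ⟨p, rfl⟩ : ∃ p, q = p + 1 := ⟨q - 1, by omega⟩
  rw [Nat.add_sub_cancel]
  apply Nat.sub_eq_of_eq_add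
  ring

set_option maxHeartbeats 1000000 in
/-- The bound. -/
theorem min_degree [ρ.IsIrreducible] (h2 : 2 ≤ finrank ℂ V) :
    Fintype.card F * (Fintype.card F ^ 12 + 1) * (Fintype.card F ^ 10 + 1) * (Fintype.card F ^ 6 + 1) ≤
      finrank ℂ V := by
  set q := Fintype.card F with hqdef
  set d := finrank ℂ V with hd
  have hq : 2 ≤ q := Fintype.one_lt_card
  rw [show q * (q ^ 12 + 1) * (q ^ 10 + 1) * (q ^ 6 + 1) =
    q ^ 29 + q ^ 23 + q ^ 19 + q ^ 17 + q ^ 13 + q ^ 11 + q ^ 7 + q by ring]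
  by_contra! hlt
  have hfaith := faithful ρ h2
  obtain ⟨ψ, hψ1⟩ : ∃ ψ : AddChar F ℂ, ψ 1 ≠ 1 := AddChar.exists_apply_ne_zero.2 one_ne_zero
  have hψ : ψ ≠ 1 := fun e => hψ1 (by rw [e]; rfl)
  have hp : ∀ a, 1 ≤ q ^ a := fun a => Nat.one_le_pow _ _ (by omega)
  -- the highest root
  set W0 := fixS ρ [239] with hW0
  have hZ := sum_LZ ρ ψ hψ
  rw [← hd, ← hW0] at hZ
  have hκ : 0 < mult ρ ψ ⊤ LZ (fun _ => (1 : F)) := by
    by_contra h
    rw [Nat.eq_zero_of_not_pos h, mul_zero, add_zero] at hZ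
    have hfull : W0 = ⊤ := Submodule.eq_top_of_finrank_eq hZ.symm
    have e : X 239 (1 : F) = 1 := hfaith _ (LinearMap.ext fun v => (hfull ▸ Submodule.mem_top : v ∈ W0) 239
      (List.mem_singleton.2 rfl) 1)
    have e' : (ChevSteinberg.grpSys (rules F)).x 239 (1 : F) = (ChevSteinberg.grpSys (rules F)).x 0 0 := by
      rw [(ChevSteinberg.grpSys (rules F)).x_zero (by decide)]; exact e
    obtain ⟨len, hR⟩ := (rules F).root
    exact absurd ((ChevSteinberg.grpSys (rules F)).x_root_inj hR (by decide) (by decide) one_ne_zero e') (by decide)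
  have hκ28 : q ^ 28 ≤ mult ρ ψ ⊤ LZ (fun _ => (1 : F)) := (eigZ_big ρ ψ hψ one_ne_zero hκ).1
  set K := (q - 1) * q ^ 28 with hKdef
  have hK : K + q ^ 28 = q ^ 29 := by
    rw [hKdef, ← add_one_mul, Nat.sub_add_cancel (by omega), ← pow_succ']
  have hdK : finrank ℂ W0 + K ≤ d := by
    rw [hZ]; exact Nat.add_le_add_left (Nat.mul_le_mul_left _ hκ28) _
  set O0 := (q - 1) * ∑ s : Fin 56, q ^ (b0.cel s).length with hO0
  set O1 := (q - 1) * ∑ s : Fin 27, q ^ (b1.cel s).length with hO1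
  set O2 := (q - 1) * ∑ s : Fin 16, q ^ (b2.cel s).length with hO2
  set O3 := (q - 1) * ∑ s : Fin 10, q ^ (b3.cel s).length with hO3
  have c0 := cells0 q (by omega)
  have c1 := cells1 q (by omega)
  have c2 := cells2 q (by omega)
  have c3 := cells3 q (by omega)
  obtain ⟨B0, B0', B1, B1', B2, B2', B3⟩ := budget hq hK c0 c1 c2 c3
  have hM0 : ∀ r ∈ b0.M, Stable ρ W0 r := stW0 ρ
  have hM1 : ∀ r ∈ b1.M, Stable ρ (fixS ρ PU0) r := fun r h =>
    stU0 ρ ψ r (List.mem_append_left _ (List.mem_append_left _ h))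
  have hM2 : ∀ r ∈ b2.M, Stable ρ (fixS ρ PU1) r := fun r h =>
    stU1 ρ ψ r (List.mem_append_left _ (List.mem_append_left _ h))
  have hM3 : ∀ r ∈ b3.M, Stable ρ (fixS ρ PU2) r := fun r h =>
    stU2 ρ ψ r (List.mem_append_left _ (List.mem_append_left _ h))
  -- the 56 roots
  set S0 := ∑ x ∈ (Finset.univ : Finset (Fin 56 → F)).erase 0, mult ρ ψ W0 L0 x with hS0
  have hs0 := block_sum ρ ψ hψ lt_L.1 comm_L0 (U := W0) le_rfl (stL0 ρ)
  obtain ⟨x, hx, hxp⟩ : ∃ x : Fin 56 → F, x ≠ 0 ∧ 0 < mult ρ ψ W0 L0 x := by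
    by_contra! h
    exact centre_ne ρ ψ hfaith hψ hκ (block_trivial ρ ψ hψ lt_L.1 comm_L0 (U := W0) le_rfl (stL0 ρ)
      fun x hx => Nat.le_zero.1 (h x hx))
  set m0 := mult ρ ψ W0 L0 (Pi.single b0.top (1 : F)) with hm0
  have hcells : m0 * O0 ≤ S0 := b0.cells_le ρ ψ hM0
  have hm0p : 0 < m0 := by
    rcases b0.dichotomy ρ ψ hM0 (n := 29) big_ok.1 (esc0 ρ ψ hM0) x hx hxp with h | h
    · exfalso
      have h' : q ^ 29 ≤ S0 := h
      omega
    · exact h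
  have hm0e : m0 = 1 := by
    by_contra hne
    have : 2 * O0 ≤ m0 * O0 := Nat.mul_le_mul_right _ (by omega)
    omega
  rw [hm0e, one_mul] at hcells
  -- a vector with the character of the lowest root
  have hone : finrank ℂ ↥(W0 ⊓ eig ρ ψ L0 (Pi.single (0 : Fin 56) (1 : F))) = 1 :=
    (b0.mult_single ρ ψ hM0 56 0 (by simp) 1 one_ne_zero).trans hm0e
  obtain ⟨⟨v1, hv1W, hv1e⟩, hv1ne, -⟩ := finrank_eq_one_iff'.1 hone
  replace hv1ne : v1 ≠ 0 := fun h => hv1ne (Subtype.ext h)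
  have hv1A : v1 ∈ fixS ρ PA := v1_fixed ρ ψ hv1W hv1e hone hv1ne
  -- the fixed space of the radical of type A₇
  set WA := fixS ρ PA with hWA
  have hf0 : q ^ 7 + q ^ 6 + q ^ 5 + q ^ 4 + q ^ 3 + q ^ 2 + q ≤ finrank ℂ WA := by
    have h := le_finrank_levi ρ WA (fun i j hij t => stSL ρ 8 i j hij (by omega) (by omega) t)
      ⟨1, v1, hv1A, fun h => ?_⟩
    · refine Nat.le_of_mul_le_mul_left (le_trans (le_of_eq (poly8 q (by omega)).symm) h) (by omega : 0 < q - 1)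
    · have := hv1e 0 1
      rw [show L0 0 = 120 from sub_Y.1.1, h, Pi.single_eq_same, one_mul] at this
      refine hψ1 (smul_left_injective ℂ hv1ne ?_)
      show ψ 1 • v1 = (1 : ℂ) • v1
      rw [← this, one_smul]
  have hstA : ∀ {k : ℕ} {L : Fin k → ℕ} {row : List (Fin k)},
      (∀ r ∈ row.map L, r ∈ row0.map L0 ++ row1.map L1 ++ row2.map L2) → (∀ j, j ∉ row → L j ∈ PA) →
      ∀ j : Fin k, Stable ρ WA (L j) := fun {k L row} h1 h2 j => by
    by_cases hj : j ∈ row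
    · exact norm_stable ρ norm_A (h1 _ (List.mem_map.2 ⟨j, hj, rfl⟩))
    · exact stable_of_fix ρ fun v hv t => hv _ (h2 j hj) t
  have hA0' := @hstA 56 L0 row0 (fun r h => List.mem_append_left _ (List.mem_append_left _ h)) sub_row.1
  have hA1' := @hstA 27 L1 row1 (fun r h => List.mem_append_left _ (List.mem_append_right _ h)) sub_row.2.1
  have hA2' := @hstA 16 L2 row2 (fun r h => List.mem_append_right _ h) sub_row.2.2.1
  have hAW0 : WA ≤ W0 := fixS_anti ρ fun r hr => by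
    obtain rfl := List.mem_singleton.1 hr
    exact sub_U.2.2.2.2.2.2
  have hA1 : WA ⊓ fixS ρ (List.ofFn L0) ≤ fixS ρ PU0 := fun v hv r hr t => by
    rcases List.mem_cons.1 (sub_U.1 r hr) with h | h
    · exact hAW0 hv.1 r (List.mem_singleton.2 h) t
    · exact hv.2 r h t
  have hrow0 := row_bound ρ ψ hψ lt_L.1 comm_L0 (U := WA) hAW0
    hA0' hψ1
    (W := W0) hAW0 (row := row0) (fun j hj v hv t => hv _ (sub_row.1 j hj) t)
    (row_one ρ ψ b0 hM0 rowOk0 (le_of_eq hm0e))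
  rw [sub_row.2.2.2.1, ← hqdef] at hrow0
  have e1 := Submodule.finrank_mono (le_inf (inf_le_left : WA ⊓ fixS ρ (List.ofFn L0) ≤ WA) hA1)
  -- the space fixed by the positive roots and E₇
  have hT0 : finrank ℂ (fixS ρ SS0) ≤ q - 1 := by
    have h := levi_step ρ ψ (m := iS7) (b := 119) hψ hψ1 lt_L.1 comm_L0 norm_Y0
      (fun r hr => by obtain rfl := List.mem_singleton.1 hr; exact sub_Y.1.2.1) sub_Y.1.2.2 sub_Y.1.1
      (by norm_num) refl_0 der_g0 (zero_one ρ ψ b0 hM0 (le_of_eq hm0e))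
    have hbot : fixS ρ (List.range 240) = ⊥ := eq_bot_iff.2 fun v hv =>
      (Submodule.mem_bot _).2 (fixed_eq_zero ρ hfaith fun r hr t => hv r (List.mem_range.2 hr) t)
    rw [hbot, finrank_bot, zero_add, ← hqdef] at h
    exact h
  -- the 27 roots
  set S1 := ∑ x ∈ (Finset.univ : Finset (Fin 27 → F)).erase 0, mult ρ ψ (fixS ρ PU0) L1 x with hS1
  have hs1 := block_sum ρ ψ hψ lt_L.2.1 comm_L1 (U := fixS ρ PU0) le_rfl (stL1 ρ ψ)
  have hW1le : finrank ℂ (fixS ρ PU0) ≤ finrank ℂ ↥(W0 ⊓ fixS ρ (List.ofFn L0)) :=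
    Submodule.finrank_mono (le_inf (fixS_anti ρ fun r hr => sub_U.2.2.2.2.1 r (by
      obtain rfl := List.mem_singleton.1 hr; exact List.mem_cons_self ..))
      (fixS_anti ρ fun r hr => sub_U.2.2.2.2.1 r (List.mem_cons_of_mem _ hr)))
  obtain ⟨x, hx, hxp⟩ : ∃ x : Fin 27 → F, x ≠ 0 ∧ 0 < mult ρ ψ (fixS ρ PU0) L1 x := by
    by_contra! h
    have hle := level_spread ρ (stU0 ρ ψ) der_1 (block_trivial ρ ψ hψ lt_L.2.1 comm_L1 (U := fixS ρ PU0) le_rfl
      (stL1 ρ ψ) fun x hx => Nat.le_zero.1 (h x hx))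
    have := Submodule.finrank_mono (le_trans (inf_le_right : WA ⊓ fixS ρ PU0 ≤ fixS ρ PU0) hle)
    have := hp 6; have := hp 5; have := hp 4; have := hp 3; have := hp 2
    omega
  set m1 := mult ρ ψ (fixS ρ PU0) L1 (Pi.single b1.top (1 : F)) with hm1
  have hcells1 : m1 * O1 ≤ S1 := b1.cells_le ρ ψ hM1
  have hm1p : 0 < m1 := by
    rcases b1.dichotomy ρ ψ hM1 (n := 18) big_ok.2.1 (esc_of_core ρ ψ b1 big_ok.2.2.2.2.1) x hx hxp with h | h
    · exfalso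
      have h' : q ^ 18 ≤ S1 := h
      omega
    · exact h
  have hm1e : m1 = 1 := by
    by_contra hne
    have : 2 * O1 ≤ m1 * O1 := Nat.mul_le_mul_right _ (by omega)
    omega
  rw [hm1e, one_mul] at hcells1
  have hA2 : (WA ⊓ fixS ρ PU0) ⊓ fixS ρ (List.ofFn L1) ≤ fixS ρ PU1 := fun v hv r hr t => by
    rcases List.mem_append.1 (sub_U.2.1 r hr) with h | h
    · exact hv.1.2 r h t
    · exact hv.2 r h t
  have hrow1 := row_bound ρ ψ hψ lt_L.2.1 comm_L1 (U := WA ⊓ fixS ρ PU0) inf_le_right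
    (fun j => (hA1' j).inf ρ (stL1 ρ ψ j))
    hψ1 (W := fixS ρ PU0) inf_le_right (row := row1) (fun j hj v hv t => hv.1 _ (sub_row.2.1 j hj) t)
    (row_one ρ ψ b1 hM1 rowOk1 (le_of_eq hm1e))
  rw [sub_row.2.2.2.2.1, ← hqdef] at hrow1
  have e2 := Submodule.finrank_mono (le_inf
    (inf_le_left.trans inf_le_left : (WA ⊓ fixS ρ PU0) ⊓ fixS ρ (List.ofFn L1) ≤ WA) hA2)
  have hT1 : finrank ℂ (fixS ρ SS1) ≤ finrank ℂ (fixS ρ SS0) + (q - 1) :=
    levi_step ρ ψ (m := iS6) (b := 118) hψ hψ1 lt_L.2.1 comm_L1 norm_Y1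
      sub_Y.2.1.2.1 sub_Y.2.1.2.2 sub_Y.2.1.1 (by norm_num) refl_1 der_g1 (zero_one ρ ψ b1 hM1 (le_of_eq hm1e))
  -- the 16 roots
  set S2 := ∑ x ∈ (Finset.univ : Finset (Fin 16 → F)).erase 0, mult ρ ψ (fixS ρ PU1) L2 x with hS2
  have hs2 := block_sum ρ ψ hψ lt_L.2.2.1 comm_L2 (U := fixS ρ PU1) le_rfl (stL2 ρ ψ)
  have hW2le : finrank ℂ (fixS ρ PU1) ≤ finrank ℂ ↥(fixS ρ PU0 ⊓ fixS ρ (List.ofFn L1)) :=
    Submodule.finrank_mono (le_inf (fixS_anti ρ sup_U.1) (fixS_anti ρ sup_U.2.1))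
  obtain ⟨x, hx, hxp⟩ : ∃ x : Fin 16 → F, x ≠ 0 ∧ 0 < mult ρ ψ (fixS ρ PU1) L2 x := by
    by_contra! h
    have hle := level_spread ρ (stU1 ρ ψ) der_2 (block_trivial ρ ψ hψ lt_L.2.2.1 comm_L2 (U := fixS ρ PU1) le_rfl
      (stL2 ρ ψ) fun x hx => Nat.le_zero.1 (h x hx))
    have := Submodule.finrank_mono (le_trans (inf_le_right : WA ⊓ fixS ρ PU1 ≤ fixS ρ PU1) hle)
    have := hp 5; have := hp 4; have := hp 3
    have hqq : q ^ 1 ≤ q ^ 2 := Nat.pow_le_pow_right (by omega) (by norm_num)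
    rw [pow_one] at hqq
    omega
  set m2 := mult ρ ψ (fixS ρ PU1) L2 (Pi.single b2.top (1 : F)) with hm2
  have hcells2 : m2 * O2 ≤ S2 := b2.cells_le ρ ψ hM2
  have hm2p : 0 < m2 := by
    rcases b2.dichotomy ρ ψ hM2 (n := 12) big_ok.2.2.1 (esc_of_core ρ ψ b2 big_ok.2.2.2.2.2.1) x hx hxp with h | h
    · exfalso
      have h' : q ^ 12 ≤ S2 := h
      omega
    · exact h
  have hm2e : m2 = 1 := by
    by_contra hne
    have : 2 * O2 ≤ m2 * O2 := Nat.mul_le_mul_right _ (by omega)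
    omega
  rw [hm2e, one_mul] at hcells2
  have hA3 : (WA ⊓ fixS ρ PU1) ⊓ fixS ρ (List.ofFn L2) ≤ fixS ρ PU2 := fun v hv r hr t => by
    rcases List.mem_append.1 (sub_U.2.2.1 r hr) with h | h
    · exact hv.1.2 r h t
    · exact hv.2 r h t
  have hrow2 := row_bound ρ ψ hψ lt_L.2.2.1 comm_L2 (U := WA ⊓ fixS ρ PU1) inf_le_right
    (fun j => (hA2' j).inf ρ (stL2 ρ ψ j))
    hψ1 (W := fixS ρ PU1) inf_le_right (row := row2) (fun j hj v hv t => hv.1 _ (sub_row.2.2.1 j hj) t)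
    (row_one ρ ψ b2 hM2 rowOk2 (le_of_eq hm2e))
  rw [sub_row.2.2.2.2.2, ← hqdef] at hrow2
  have e3 := Submodule.finrank_mono (le_inf
    (inf_le_left.trans inf_le_left : (WA ⊓ fixS ρ PU1) ⊓ fixS ρ (List.ofFn L2) ≤ WA) hA3)
  have hT2 : finrank ℂ (fixS ρ SS2) ≤ finrank ℂ (fixS ρ SS1) + (q - 1) :=
    levi_step ρ ψ (m := iS0) (b := 77) hψ hψ1 lt_L.2.2.1 comm_L2 norm_Y2
      sub_Y.2.2.2.1 sub_Y.2.2.2.2 sub_Y.2.2.1 (by norm_num) refl_2 der_g2 (zero_one ρ ψ b2 hM2 (le_of_eq hm2e))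
  -- the 10 roots
  set S3 := ∑ x ∈ (Finset.univ : Finset (Fin 10 → F)).erase 0, mult ρ ψ (fixS ρ PU2) L3 x with hS3
  have hs3 := block_sum ρ ψ hψ lt_L.2.2.2 comm_L3 (U := fixS ρ PU2) le_rfl (stL3 ρ ψ)
  have hW3le : finrank ℂ (fixS ρ PU2) ≤ finrank ℂ ↥(fixS ρ PU1 ⊓ fixS ρ (List.ofFn L2)) :=
    Submodule.finrank_mono (le_inf (fixS_anti ρ sup_U.2.2.1) (fixS_anti ρ sup_U.2.2.2))
  obtain ⟨x, hx, hxp⟩ : ∃ x : Fin 10 → F, x ≠ 0 ∧ 0 < mult ρ ψ (fixS ρ PU2) L3 x := by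
    by_contra! h
    have hle := level_spread ρ (stU2 ρ ψ) der_3 (block_trivial ρ ψ hψ lt_L.2.2.2 comm_L3 (U := fixS ρ PU2) le_rfl
      (stL3 ρ ψ) fun x hx => Nat.le_zero.1 (h x hx))
    have := Submodule.finrank_mono (le_trans (inf_le_right : WA ⊓ fixS ρ PU2 ≤ fixS ρ PU2) hle)
    have := hp 4; have := hp 3; have := hp 2
    have hqq : q ^ 1 ≤ q ^ 2 := Nat.pow_le_pow_right (by omega) (by norm_num)
    have hqq' : q ^ 1 ≤ q ^ 3 := Nat.pow_le_pow_right (by omega) (by norm_num)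
    rw [pow_one] at hqq hqq'
    omega
  have hS3 : O3 ≤ S3 := by
    rcases b3.dichotomy ρ ψ hM3 (n := 8) big_ok.2.2.2.1 (esc_of_core ρ ψ b3 big_ok.2.2.2.2.2.2) x hx hxp with h | h
    · exact B3.trans h
    · exact le_trans (Nat.le_mul_of_pos_left _ h) (b3.cells_le ρ ψ hM3)
  have hg : finrank ℂ ↥(WA ⊓ fixS ρ PU2) ≤ finrank ℂ ↥(fixS ρ PU2 ⊓ fixS ρ (List.ofFn L3)) :=
    Submodule.finrank_mono (le_inf inf_le_right (inf_le_left.trans (fixS_anti ρ sub_U.2.2.2.2.2.1)))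
  have hdeq : d = dBad q := by
    rw [dBad]
    omega
  have hdvd : d ∣ Nat.card (Gam F) := Cfsg.Agent.Char.finrank_dvd_card ρ
  rw [Cfsg.Agent.S1065.result (F := F) hqdef.symm] at hdvd
  exact not_dvd_order hq (hdeq ▸ hdvd)

end Cfsg.Agent.E8Deg
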