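import Cfsg.Agent.E8Deg.Group
import Cfsg.Agent.G2Deg.Mult
import Mathlib.GroupTheory.NoncommPiCoprod

/-!
# Multiplicities of the characters of an abelian block of root groups
-/

set_option autoImplicit false
set_option maxRecDepth 10000
set_option linter.unusedSectionVars false

namespace Cfsg.Agent.E8Deg

open Cfsg.Lie
open Module (finrank)

variable {F : Type*} [Field F] {k : ℕ} {L : Fin k → ℕ} {tg : ℕ → Fin k → Option (Fin k × ℤ)} {M : List ℕ}

theorem cast_pm {c : ℤ} (hc : c = 1 ∨ c = -1) : (c : F) ≠ 0 := by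
  rcases hc with rfl | rfl <;> simp

/-- The action of a root element on the coordinates of a character. -/
def mv (tg : ℕ → Fin k → Option (Fin k × ℤ)) (r : ℕ) (t : F) (x : Fin k → F) : Fin k → F :=
  fun j => x j + (tg r j).elim 0 fun p => (p.2 : F) * t * x p.1

theorem mv_none {r : ℕ} {j : Fin k} (h : tg r j = none) (t : F) (x : Fin k → F) :
    mv tg r t x j = x j := by simp [mv, h]

theorem mv_some {r : ℕ} {j i : Fin k} {c : ℤ} (h : tg r j = some (i, c)) (t : F) (x : Fin k → F) :
    mv tg r t x j = x j + (c : F) * t * x i := by simp [mv, h]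

/-- Successive moves, with the parameters indexed by the coordinates they create. -/
def app (tg : ℕ → Fin k → Option (Fin k × ℤ)) : List (ℕ × Fin k) → (Fin k → F) → (Fin k → F) → (Fin k → F)
  | [], _, x => x
  | p :: l, t, x => mv tg p.1 (t p.2) (app tg l t x)

theorem app_nil (t x : Fin k → F) : app tg [] t x = x := rfl

theorem app_cons (p : ℕ × Fin k) (l : List (ℕ × Fin k)) (t x : Fin k → F) :
    app tg (p :: l) t x = mv tg p.1 (t p.2) (app tg l t x) := rfl

theorem app_induction {P : (Fin k → F) → Prop} : ∀ {l : List (ℕ × Fin k)} (t : Fin k → F) {x : Fin k → F},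
    (∀ p ∈ l, ∀ y, P y → P (mv tg p.1 (t p.2) y)) → P x → P (app tg l t x)
  | [], _, _, _, h => h
  | p :: l, t, x, hp, h => hp p (List.mem_cons_self ..) _
      (app_induction (l := l) t (fun q hq => hp q (List.mem_cons_of_mem _ hq)) h)

theorem app_untouched {l : List (ℕ × Fin k)} {j : Fin k} (h : ∀ p ∈ l, tg p.1 j = none)
    (t x : Fin k → F) : app tg l t x j = x j :=
  app_induction (P := fun y => y j = x j) t (fun p hp y hy => by rw [mv_none (h p hp), hy]) rfl

theorem StarOk.tail {s : Fin k} {p : ℕ × Fin k} {l : List (ℕ × Fin k)} (h : StarOk tg s (p :: l)) :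
    StarOk tg s l := by
  refine ⟨(List.nodup_cons.1 h.1).2, fun q hq => ?_⟩
  obtain ⟨h1, h2, h3⟩ := h.2 q (List.mem_cons_of_mem _ hq)
  exact ⟨h1, h2, fun q' hq' hne => h3 q' (List.mem_cons_of_mem _ hq') hne⟩

/-- The effect of independent moves from a pivot. -/
theorem star_spec {s : Fin k} : ∀ {l : List (ℕ × Fin k)}, StarOk tg s l → ∀ (t x : Fin k → F),
    app tg l t x s = x s ∧ ∀ p ∈ l, ∃ c : ℤ, tg p.1 p.2 = some (s, c) ∧
      app tg l t x p.2 = x p.2 + (c : F) * t p.2 * x s
  | [], _, _, _ => ⟨rfl, fun p hp => absurd hp (List.not_mem_nil)⟩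
  | p :: l, h, t, x => by
    obtain ⟨ih1, ih2⟩ := star_spec h.tail t x
    obtain ⟨h1, h2, h3⟩ := h.2 p (List.mem_cons_self ..)
    refine ⟨by rw [app_cons, mv_none h2, ih1], fun q hq => ?_⟩
    rcases List.mem_cons.1 hq with rfl | hq'
    · obtain ⟨⟨i, c⟩, hic, hfst⟩ := Option.map_eq_some_iff.1 h1
      obtain rfl : i = s := hfst
      refine ⟨c, hic, ?_⟩
      rw [app_cons, mv_some hic, ih1, app_untouched (fun q' hq' => ?_)]
      refine h3 q' (List.mem_cons_of_mem _ hq') fun e => ?_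
      exact (List.nodup_cons.1 h.1).1 (List.mem_map.2 ⟨q', hq', by rw [e]⟩)
    · obtain ⟨c, hc, he⟩ := ih2 q hq'
      refine ⟨c, hc, ?_⟩
      rw [app_cons, mv_none ((h.2 q hq).2.2 p (List.mem_cons_self ..) fun e => ?_), he]
      exact (List.nodup_cons.1 h.1).1 (List.mem_map.2 ⟨q, hq', by rw [e]⟩)

/-- Any values can be produced in the created coordinates. -/
theorem star_solve {s : Fin k} {l : List (ℕ × Fin k)} (h : StarOk tg s l)
    (hpm : ∀ p ∈ l, ∀ i ∈ (tg p.1 p.2).toList, i.2 = 1 ∨ i.2 = -1) (g x : Fin k → F) (hs : x s ≠ 0) :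
    ∃ t, ∀ p ∈ l, app tg l t x p.2 = g p.2 := by
  classical
  refine ⟨fun j => if hj : ∃ p ∈ l, p.2 = j then
    (g j - x j) / (((((tg hj.choose.1 j).map Prod.snd).getD 0 : ℤ) : F) * x s) else 0, fun p hp => ?_⟩
  set t : Fin k → F := fun j => if hj : ∃ p ∈ l, p.2 = j then
    (g j - x j) / (((((tg hj.choose.1 j).map Prod.snd).getD 0 : ℤ) : F) * x s) else 0 with ht
  obtain ⟨c, hc, he⟩ := (star_spec h t x).2 p hp
  have hj : ∃ q ∈ l, q.2 = p.2 := ⟨p, hp, rfl⟩
  have hq : hj.choose = p := List.inj_on_of_nodup_map h.1 hj.choose_spec.1 hp hj.choose_spec.2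
  have hc0 : (c : F) ≠ 0 := cast_pm (hpm p hp (s, c) (by rw [hc]; simp))
  rw [he, ht]
  simp only [dif_pos hj, hq, hc, Option.map_some, Option.getD_some]
  field_simp
  ring

variable {V : Type*} [AddCommGroup V] [Module ℂ V] [FiniteDimensional ℂ V]
  (ρ : Representation ℂ (Gam F) V) (ψ : AddChar F ℂ)

/-- The vectors on which a block of root groups acts through a character. -/
def eig (L : Fin k → ℕ) (x : Fin k → F) : Submodule ℂ V where
  carrier := {v | ∀ (j : Fin k) (u : F), ρ (X (L j) u) v = ψ (x j * u) • v}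
  add_mem' := fun {v w} hv hw j u => by rw [map_add, hv j u, hw j u, smul_add]
  zero_mem' := fun j u => by simp
  smul_mem' := fun c {v} hv j u => by rw [map_smul, hv j u, smul_comm]

/-- The multiplicity of a character of a block inside a subspace. -/
noncomputable def mult (W : Submodule ℂ V) (L : Fin k → ℕ) (x : Fin k → F) : ℕ := finrank ℂ ↥(W ⊓ eig ρ ψ L x)

/-- An invariant subspace. -/
def Stable (W : Submodule ℂ V) (r : ℕ) : Prop := ∀ t : F, ∀ w ∈ W, ρ (X r t) w ∈ W

section Sum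

variable [Fintype F] [DecidableEq F] {W : Submodule ℂ V}

/-- A root group acting on an invariant subspace. -/
noncomputable def resHom (hb : ∀ j, L j < 240) (hW : ∀ j : Fin k, Stable ρ W (L j)) (j : Fin k) :
    Multiplicative F →* Module.End ℂ W where
  toFun u := (ρ (X (L j) u.toAdd)).restrict (hW j u.toAdd)
  map_one' := LinearMap.ext fun w => Subtype.ext (by
    simp [X_zero (hb j)])
  map_mul' u v := LinearMap.ext fun w => Subtype.ext (by
    simp [← X_add (hb j)])

theorem resHom_apply (hb : ∀ j, L j < 240) (hW : ∀ j : Fin k, Stable ρ W (L j)) (j : Fin k) (u : F) (w : W) :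
    ((resHom ρ hb hW j (Multiplicative.ofAdd u) w : W) : V) = ρ (X (L j) u) w := rfl

theorem resHom_commute (hb : ∀ j, L j < 240) (hW : ∀ j : Fin k, Stable ρ W (L j))
    (hcomm : ∀ i j : Fin k, i ≠ j → ∀ (u v : F), ∀ w ∈ W, ρ (X (L i) u) (ρ (X (L j) v) w) = ρ (X (L j) v) (ρ (X (L i) u) w)) :
    Pairwise fun i j : Fin k => ∀ u v : Multiplicative F, Commute (resHom ρ hb hW i u) (resHom ρ hb hW j v) := by
  intro i j hij u v
  exact LinearMap.ext fun w => Subtype.ext (hcomm i j hij u.toAdd v.toAdd w w.2)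

/-- The multiplicities add up to the dimension. -/
theorem sum_mult (hψ : ψ ≠ 1) (hb : ∀ j, L j < 240) (hW : ∀ j : Fin k, Stable ρ W (L j))
    (hcomm : ∀ i j : Fin k, i ≠ j → ∀ (u v : F), ∀ w ∈ W, ρ (X (L i) u) (ρ (X (L j) v) w) = ρ (X (L j) v) (ρ (X (L i) u) w)) :
    ∑ x : Fin k → F, mult ρ ψ W L x = finrank ℂ W := by
  let P := MonoidHom.noncommPiCoprod (fun j => resHom ρ hb hW j) (resHom_commute ρ hb hW hcomm)
  let A : G2Deg.Act F k W :=
    { R := fun a => P fun j => Multiplicative.ofAdd (a j)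
      mul := fun a c => by rw [← map_mul]; rfl }
  have hR0 : A.R 0 = 1 := map_one P
  have hsingle : ∀ (j : Fin k) (u : F), A.R (Pi.single j u) = resHom ρ hb hW j (Multiplicative.ofAdd u) := by
    intro j u
    have e : (fun i => Multiplicative.ofAdd ((Pi.single j u : Fin k → F) i)) =
        Pi.mulSingle j (Multiplicative.ofAdd u) := by
      funext i
      rcases eq_or_ne i j with rfl | h
      · simp
      · simp [h]
    show P _ = _
    rw [e]
    exact MonoidHom.noncommPiCoprod_mulSingle ..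
  have hM : ∀ x, A.M ψ x = mult ρ ψ W L x := by
    intro x
    have hrange : (LinearMap.range (A.E ψ x)).map W.subtype = W ⊓ eig ρ ψ L x := by
      apply le_antisymm
      · rintro _ ⟨_, ⟨w, rfl⟩, rfl⟩
        refine ⟨(A.E ψ x w).2, fun j u => ?_⟩
        have h1 := congrArg (fun f : Module.End ℂ W => ((f w : W) : V)) (A.R_mul_E ψ (Pi.single j u) x)
        simp only [Module.End.mul_apply, hsingle, resHom_apply, LinearMap.smul_apply, Submodule.coe_smul] at h1
        rw [show G2Deg.dot x (Pi.single j u) = x j * u by simp [G2Deg.dot, Pi.single_apply]] at h1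
        exact h1
      · rintro v ⟨hv, hve⟩
        refine ⟨⟨v, hv⟩, ⟨⟨v, hv⟩, ?_⟩, rfl⟩
        have hRv : ∀ a, A.R a ⟨v, hv⟩ = ψ (G2Deg.dot x a) • (⟨v, hv⟩ : W) := by
          intro a
          rw [← Finset.univ_sum_single a]
          refine Finset.sum_induction _ (fun y => A.R y ⟨v, hv⟩ = ψ (G2Deg.dot x y) • (⟨v, hv⟩ : W)) ?_ ?_ ?_
          · intro y z hy hz
            rw [← A.mul, Module.End.mul_apply, hz, map_smul, hy, smul_smul, G2Deg.dot_add,
              AddChar.map_add_eq_mul, mul_comm]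
          · simp [hR0, G2Deg.dot]
          · intro i _
            rw [hsingle, show G2Deg.dot x (Pi.single i (a i)) = x i * a i by simp [G2Deg.dot, Pi.single_apply]]
            exact Subtype.ext (hve i (a i))
        rw [G2Deg.Act.E, LinearMap.smul_apply, LinearMap.sum_apply]
        simp only [LinearMap.smul_apply, hRv, smul_smul, ← AddChar.map_add_eq_mul, neg_add_cancel,
          AddChar.map_zero_eq_one, one_smul, Finset.sum_const, Finset.card_univ]
        rw [← Nat.cast_smul_eq_nsmul ℂ, smul_smul, inv_mul_cancel₀ (Nat.cast_ne_zero.2 Fintype.card_ne_zero),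
          one_smul]
    rw [mult, G2Deg.Act.M, ← hrange, Submodule.finrank_map_subtype_eq]
  have := A.sum_M ψ hψ
  rw [hR0] at this
  rw [← Finset.sum_congr rfl fun x _ => hM x, this]
  exact LinearMap.range_id (R := ℂ) (M := W) ▸ finrank_top ℂ W

end Sum

section Moves

variable {W : Submodule ℂ V}

theorem mv_mv_neg (hok : BlockOk L tg M) {r : ℕ} (hr : r ∈ M) (t : F) (x : Fin k → F) :
    mv tg r (-t) (mv tg r t x) = x := by
  funext j
  obtain ⟨-, -, -, -, hp⟩ := (hok r hr).2 j
  rcases h : tg r j with _ | ⟨i, c⟩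
  · rw [mv_none h, mv_none h]
  · obtain ⟨-, hnone⟩ := hp (i, c) (by simp [h])
    rw [mv_some h, mv_some h, mv_none hnone]
    ring

theorem mem_eig_mv (hok : BlockOk L tg M) {r : ℕ} (hrM : r ∈ M)
    (t : F) {x : Fin k → F} {v : V} (hv : v ∈ eig ρ ψ L x) :
    ρ (X r t) v ∈ eig ρ ψ L (mv tg r t x) := by
  intro j u
  obtain ⟨hj, h1, h2, hc, -⟩ := (hok r hrM).2 j
  have hr : r < 240 := (hok r hrM).1
  rcases h : tg r j with _ | ⟨i, c⟩
  · simp only [h, Option.elim] at hc
    rw [mv_none h, ← Module.End.mul_apply, ← map_mul, ← (X_commute hr hj h1 h2 hc t u).eq, map_mul,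
      Module.End.mul_apply, hv j u, map_smul]
  · simp only [h, Option.elim] at hc
    rw [mv_some h, ← Module.End.mul_apply, ← map_mul, X_comm_one hr hj h1 h2 hc, map_mul, map_mul,
      Module.End.mul_apply, Module.End.mul_apply, hv i, map_smul, map_smul, hv j, map_smul, smul_smul,
      ← AddChar.map_add_eq_mul]
    congr 2
    push_cast
    ring

/-- A map which is injective and carries one eigenspace into another. -/
theorem mult_le_of_map {x y : Fin k → F} (g : Gam F) (hW : ∀ w ∈ W, ρ g w ∈ W)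
    (he : ∀ v ∈ W, v ∈ eig ρ ψ L x → ρ g v ∈ eig ρ ψ L y) :
    mult ρ ψ W L x ≤ mult ρ ψ W L y := by
  let f : ↥(W ⊓ eig ρ ψ L x) →ₗ[ℂ] ↥(W ⊓ eig ρ ψ L y) :=
    (ρ g).restrict fun v hv => ⟨hW v hv.1, he v hv.1 hv.2⟩
  refine LinearMap.finrank_le_finrank_of_injective (f := f) fun v w h => Subtype.ext ?_
  exact rho_inj ρ g (congrArg Subtype.val h)

theorem mult_mv (hok : BlockOk L tg M) (hW : ∀ r ∈ M, Stable ρ W r) {r : ℕ} (hr : r ∈ M) (t : F)
    (x : Fin k → F) : mult ρ ψ W L (mv tg r t x) = mult ρ ψ W L x := by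
  have key : ∀ (t : F) (x : Fin k → F), mult ρ ψ W L x ≤ mult ρ ψ W L (mv tg r t x) := fun t x =>
    mult_le_of_map ρ ψ (X r t) (hW r hr t) fun v _ hv => mem_eig_mv ρ ψ hok hr t hv
  refine le_antisymm ?_ (key t x)
  have := key (-t) (mv tg r t x)
  rwa [mv_mv_neg hok hr] at this

theorem mult_app (hok : BlockOk L tg M) (hW : ∀ r ∈ M, Stable ρ W r) {l : List (ℕ × Fin k)}
    (hl : ∀ p ∈ l, p.1 ∈ M) (t x : Fin k → F) :
    mult ρ ψ W L (app tg l t x) = mult ρ ψ W L x :=
  app_induction (P := fun y => mult ρ ψ W L y = mult ρ ψ W L x) t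
    (fun p hp y hy => (mult_mv ρ ψ hok hW (hl p hp) _ y).trans hy) rfl

theorem app_injective (hok : BlockOk L tg M) : ∀ {l : List (ℕ × Fin k)},
    (∀ p ∈ l, p.1 ∈ M) → ∀ t : Fin k → F, Function.Injective (app tg l t)
  | [], _, _ => fun _ _ h => h
  | p :: l, hl, t => fun x y h => by
    refine app_injective hok (fun q hq => hl q (List.mem_cons_of_mem _ hq)) t ?_
    have := congrArg (mv tg p.1 (-t p.2)) h
    rwa [app_cons, app_cons, mv_mv_neg hok (hl p (List.mem_cons_self ..)), mv_mv_neg hok (hl p (List.mem_cons_self ..))] at this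

end Moves

end Cfsg.Agent.E8Deg
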